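import Mathlib

/-!
# Average number of fixed points of a `p`-group, part A: irreducible modules
-/

set_option autoImplicit false
set_option linter.style.haveILetI false
set_option linter.unusedSectionVars false

namespace Cfsg.Agent.H79.AvgFix

open Subgroup LinearMap

variable {F V P : Type*} [Field F] [AddCommGroup V] [Module F V] [Finite V] [Group P] [Fintype P]
  {p : ℕ} [hp : Fact p.Prime] (T : P →* Module.End F V)

/-- fixed points of `x` -/
def fx (x : P) : Submodule F V := LinearMap.ker (T x - 1)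

theorem mem_fx {x : P} {v : V} : v ∈ fx T x ↔ T x v = v := by
  rw [fx, LinearMap.mem_ker, LinearMap.sub_apply, Module.End.one_apply, sub_eq_zero]

/-- common fixed points -/
def fxA : Submodule F V := ⨅ x : P, fx T x

theorem mem_fxA {v : V} : v ∈ fxA T ↔ ∀ x, T x v = v := by
  rw [fxA, Submodule.mem_iInf]
  exact forall_congr' fun x => mem_fx T

/-- independence -/
theorem indep {z : P} (hz : ∀ x v, T (x * z) v = T (z * x) v)
    (hz1 : ∀ k : ℤ, ¬ (p : ℤ) ∣ k → ∀ v, T (z ^ k) v = v → v = 0) (x : P) :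
    ∀ (s : Finset ℕ), (∀ i ∈ s, i < p) → ∀ u : ℕ → V, (∀ i ∈ s, u i ∈ fx T (x * z ^ i)) → ∑ i ∈ s, u i = 0 →
      ∀ i ∈ s, u i = 0 := by
  classical
  have hzz : ∀ (k : ℤ) (y : P) (v : V), T (y * z ^ k) v = T (z ^ k * y) v := by
    have hinv : ∀ (y : P) (v : V), T (y * z⁻¹) v = T (z⁻¹ * y) v := by
      intro y v
      have h1 := hz (z⁻¹ * y) (T z⁻¹ v)
      have e1 : z * (z⁻¹ * y) = y := by group
      rw [e1, ← Module.End.mul_apply, ← Module.End.mul_apply, ← map_mul, ← map_mul] at h1
      have e2 : z⁻¹ * y * z * z⁻¹ = z⁻¹ * y := by group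
      rw [e2] at h1
      exact h1.symm
    have hnat : ∀ (w : P), (∀ (y : P) (v : V), T (y * w) v = T (w * y) v) → ∀ (k : ℕ) (y : P) (v : V),
        T (y * w ^ k) v = T (w ^ k * y) v := by
      intro w hw k
      induction k with
      | zero => intro y v; simp
      | succ k ih =>
        intro y v
        have e1 : y * w ^ (k + 1) = (y * w ^ k) * w := by rw [pow_succ, mul_assoc]
        have e2 : w ^ (k + 1) * y = w * (w ^ k * y) := by rw [pow_succ', mul_assoc]
        have e3 : ∀ a : P, T (w * a) v = T w (T a v) := fun a => by rw [map_mul, Module.End.mul_apply]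
        rw [e1, e2, hw, e3, e3, ih]
    intro k y v
    rcases Int.eq_nat_or_neg k with ⟨n, rfl | rfl⟩
    · rw [zpow_natCast]; exact hnat z hz n y v
    · rw [zpow_neg, zpow_natCast, ← inv_pow]; exact hnat z⁻¹ hinv n y v
  intro s
  induction s using Finset.induction_on with
  | empty => intro _ u _ _ i hi; exact absurd hi (Finset.notMem_empty i)
  | insert j s hj ih =>
    intro hs u hu hsum
    have hjp : j < p := hs j (Finset.mem_insert_self j s)
    -- the operator killing `u j`
    set D : Module.End F V := T (x * z ^ j) - 1 with hD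
    have hDj : D (u j) = 0 := by
      have := hu j (Finset.mem_insert_self j s)
      exact this
    have hDi : ∀ i ∈ s, D (u i) = T (z ^ ((j : ℤ) - i)) (u i) - u i := by
      intro i hi
      have h1 := (mem_fx T).1 (hu i (Finset.mem_insert_of_mem hi))
      rw [hD, LinearMap.sub_apply, Module.End.one_apply]
      congr 1
      have e1 : x * z ^ j = (x * z ^ i) * z ^ ((j : ℤ) - i) := by
        rw [mul_assoc]
        congr 1
        rw [← zpow_natCast z i, ← zpow_add, ← zpow_natCast z j]
        congr 1; ring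
      rw [e1, hzz, map_mul, Module.End.mul_apply, h1]
    have hfix : ∀ i ∈ s, D (u i) ∈ fx T (x * z ^ i) := by
      intro i hi
      have h1 := (mem_fx T).1 (hu i (Finset.mem_insert_of_mem hi))
      rw [hDi i hi, mem_fx, map_sub, h1]
      congr 1
      rw [← Module.End.mul_apply, ← map_mul, hzz, map_mul, Module.End.mul_apply, h1]
    have hsum2 : ∑ i ∈ s, D (u i) = 0 := by
      rw [Finset.sum_insert hj] at hsum
      have h1 := congrArg D hsum
      rw [map_add, hDj, zero_add, map_zero, map_sum] at h1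
      exact h1
    have h2 := ih (fun i hi => hs i (Finset.mem_insert_of_mem hi)) (fun i => D (u i)) hfix hsum2
    have h3 : ∀ i ∈ s, u i = 0 := by
      intro i hi
      have h4 : D (u i) = 0 := h2 i hi
      rw [hDi i hi, sub_eq_zero] at h4
      refine hz1 _ ?_ _ h4
      intro hd
      have hip : i < p := hs i (Finset.mem_insert_of_mem hi)
      have hij : i ≠ j := fun h => hj (h ▸ hi)
      obtain ⟨c, hc⟩ := hd
      have hc0 : c ≠ 0 := by rintro rfl; apply hij; omega
      have hpp : (0 : ℤ) < p := by exact_mod_cast hp.out.pos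
      rcases lt_or_gt_of_ne hc0 with h | h
      · have : (p : ℤ) * c ≤ p * (-1) := by
          apply mul_le_mul_of_nonneg_left _ hpp.le
          omega
        omega
      · have : (p : ℤ) * 1 ≤ p * c := by
          apply mul_le_mul_of_nonneg_left _ hpp.le
          omega
        omega
    intro i hi
    rcases Finset.mem_insert.1 hi with rfl | hi
    · rw [Finset.sum_insert hj, Finset.sum_eq_zero h3, add_zero] at hsum
      exact hsum
    · exact h3 i hi

theorem prod_le {z : P} (hz : ∀ x v, T (x * z) v = T (z * x) v)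
    (hz1 : ∀ k : ℤ, ¬ (p : ℤ) ∣ k → ∀ v, T (z ^ k) v = v → v = 0) (x : P) :
    ∏ i : Fin p, Nat.card (fx T (x * z ^ (i : ℕ))) ≤ Nat.card V := by
  classical
  rw [← Nat.card_pi]
  apply Nat.card_le_card_of_injective (fun u : (i : Fin p) → fx T (x * z ^ (i : ℕ)) => ∑ i, (u i : V))
  intro u v huv
  have h0 : ∑ i : Fin p, ((u i : V) - (v i : V)) = 0 := by
    rw [Finset.sum_sub_distrib]
    exact sub_eq_zero.2 huv
  let w : ℕ → V := fun i => if h : i < p then (u ⟨i, h⟩ : V) - (v ⟨i, h⟩ : V) else 0
  have h1 : ∑ i ∈ Finset.range p, w i = 0 := by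
    rw [← Fin.sum_univ_eq_sum_range w p, ← h0]
    apply Finset.sum_congr rfl
    intro i _
    simp only [w, i.2, dif_pos]
  have h2 := indep T hz hz1 x (Finset.range p) (fun i hi => Finset.mem_range.1 hi) w (by
    intro i hi
    have hi' := Finset.mem_range.1 hi
    simp only [w, hi', dif_pos]
    exact Submodule.sub_mem _ (u ⟨i, hi'⟩).2 (v ⟨i, hi'⟩).2) h1
  funext i
  apply Subtype.ext
  have h3 := h2 i (Finset.mem_range.2 i.2)
  simp only [w, i.2, dif_pos] at h3
  exact sub_eq_zero.1 h3

/-- **irreducible case** -/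
theorem irr_le (hP : IsPGroup p P)
    (hirr : ∀ W : Submodule F V, (∀ x, ∀ w ∈ W, T x w ∈ W) → W = ⊥ ∨ W = ⊤) :
    (∏ x : P, Nat.card (fx T x)) ^ p ≤ Nat.card V ^ Nat.card P * Nat.card (fxA T) ^ ((p - 1) * Nat.card P) := by
  classical
  have hp1 : 1 ≤ p := hp.out.one_le
  by_cases hK : T.ker = ⊤
  · have h1 : ∀ x v, T x v = v := by
      intro x v
      have : x ∈ T.ker := hK ▸ mem_top x
      rw [MonoidHom.mem_ker.1 this]; rfl
    have h2 : ∀ x, fx T x = ⊤ := by
      intro x
      rw [eq_top_iff]
      intro v _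
      exact (mem_fx T).2 (h1 x v)
    have h3 : fxA T = ⊤ := by
      rw [eq_top_iff]
      intro v _
      exact (mem_fxA T).2 fun x => h1 x v
    have h4 : Nat.card (⊤ : Submodule F V) = Nat.card V := Nat.card_congr Submodule.topEquiv.toEquiv
    rw [h3, h4, Finset.prod_congr rfl (fun x _ => by rw [h2 x, h4]), Finset.prod_const, Finset.card_univ,
      ← Nat.card_eq_fintype_card, ← pow_mul, ← pow_add]
    apply le_of_eq
    congr 1
    obtain ⟨q, rfl⟩ : ∃ q, p = q + 1 := ⟨p - 1, by omega⟩
    rw [Nat.add_sub_cancel]; ring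
  · -- a central element of `P / K`
    haveI : Nontrivial (P ⧸ T.ker) := by
      rw [← not_subsingleton_iff_nontrivial]
      intro h
      exact hK (QuotientGroup.subgroup_eq_top_of_subsingleton _ h)
    have hPK : IsPGroup p (P ⧸ T.ker) := hP.to_quotient _
    haveI : Nontrivial (center (P ⧸ T.ker)) := hPK.center_nontrivial
    obtain ⟨⟨zb, hzb⟩, hzb1⟩ := exists_ne (1 : center (P ⧸ T.ker))
    obtain ⟨z, rfl⟩ := QuotientGroup.mk_surjective zb
    have hz : ∀ x v, T (x * z) v = T (z * x) v := by
      intro x v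
      have h1 := mem_center_iff.1 hzb (QuotientGroup.mk x)
      rw [← QuotientGroup.mk_mul, ← QuotientGroup.mk_mul, QuotientGroup.eq, MonoidHom.mem_ker] at h1
      have h2 : z * x = (x * z) * ((x * z)⁻¹ * (z * x)) := by group
      have h3 : T (z * x) = T (x * z) := by rw [h2, map_mul, h1, mul_one]
      rw [h3]
    have hzK : ∀ k : ℤ, ¬ (p : ℤ) ∣ k → z ^ k ∉ T.ker := by
      intro k hk hmem
      have h1 : (QuotientGroup.mk z : P ⧸ T.ker) ^ k = 1 := by
        rw [← QuotientGroup.mk_zpow]; exact (QuotientGroup.eq_one_iff _).2 hmem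
      have h2 := orderOf_dvd_iff_zpow_eq_one.2 h1
      obtain ⟨m, hm⟩ := IsPGroup.iff_orderOf.1 hPK (QuotientGroup.mk z)
      rw [hm] at h2
      have hm0 : m ≠ 0 := by
        rintro rfl
        rw [pow_zero, orderOf_eq_one_iff] at hm
        exact hzb1 (Subtype.ext hm)
      apply hk
      refine dvd_trans ?_ h2
      exact_mod_cast dvd_pow_self p hm0
    have hz1 : ∀ k : ℤ, ¬ (p : ℤ) ∣ k → ∀ v, T (z ^ k) v = v → v = 0 := by
      intro k hk v hv
      have hnat : ∀ (k : ℤ) (y : P) (v : V), T (y * z ^ k) v = T (z ^ k * y) v := by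
        intro k y v
        have h1 : (QuotientGroup.mk (y * z ^ k) : P ⧸ T.ker) = QuotientGroup.mk (z ^ k * y) := by
          rw [QuotientGroup.mk_mul, QuotientGroup.mk_mul, QuotientGroup.mk_zpow]
          have h2 : (QuotientGroup.mk z : P ⧸ T.ker) ^ k ∈ center (P ⧸ T.ker) := zpow_mem hzb k
          exact mem_center_iff.1 h2 _
        rw [QuotientGroup.eq, MonoidHom.mem_ker] at h1
        have h2 : z ^ k * y = (y * z ^ k) * ((y * z ^ k)⁻¹ * (z ^ k * y)) := by group
        have h3 : T (z ^ k * y) = T (y * z ^ k) := by rw [h2, map_mul, h1, mul_one]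
        rw [h3]
      rcases hirr (fx T (z ^ k)) (by
        intro x w hw
        rw [mem_fx] at hw ⊢
        rw [← Module.End.mul_apply, ← map_mul, ← hnat, map_mul, Module.End.mul_apply, hw]) with h | h
      · have h1 : v ∈ fx T (z ^ k) := (mem_fx T).2 hv
        rw [h, Submodule.mem_bot] at h1
        exact h1
      · exfalso
        apply hzK k hk
        rw [MonoidHom.mem_ker]
        apply LinearMap.ext
        intro w
        exact (mem_fx T).1 (h ▸ Submodule.mem_top)
    have h1 : (∏ x : P, Nat.card (fx T x)) ^ p = ∏ x : P, ∏ i : Fin p, Nat.card (fx T (x * z ^ (i : ℕ))) := by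
      rw [Finset.prod_comm]
      have h2 : ∀ i : Fin p, ∏ x : P, Nat.card (fx T (x * z ^ (i : ℕ))) = ∏ x : P, Nat.card (fx T x) := fun i =>
        Equiv.prod_comp (Equiv.mulRight (z ^ (i : ℕ))) (fun x => Nat.card (fx T x))
      rw [Finset.prod_congr rfl (fun i _ => h2 i), Finset.prod_const, Finset.card_univ, Fintype.card_fin]
    rw [h1]
    calc ∏ x : P, ∏ i : Fin p, Nat.card (fx T (x * z ^ (i : ℕ))) ≤ ∏ _x : P, Nat.card V :=
          Finset.prod_le_prod' (fun x _ => prod_le T hz hz1 x)
      _ = Nat.card V ^ Nat.card P := by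
          rw [Finset.prod_const, Finset.card_univ, Nat.card_eq_fintype_card (α := P)]
      _ ≤ Nat.card V ^ Nat.card P * Nat.card (fxA T) ^ ((p - 1) * Nat.card P) := by
          apply Nat.le_mul_of_pos_right
          apply pow_pos
          exact Nat.card_pos

end Cfsg.Agent.H79.AvgFix
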