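import Cfsg.Agent.H79.AvgFixA
import Cfsg.Agent.BG3.Action
import Mathlib

/-!
# Average number of fixed points of a `p`-group, part B: coprime action on a solvable group
-/

set_option autoImplicit false
set_option linter.style.haveILetI false
set_option linter.unusedSectionVars false

namespace Cfsg.Agent.H79.AvgFix

open Subgroup

universe u v

theorem mem_cent_zpowers {Γ : Type u} [Group Γ] {x y : Γ} :
    y ∈ centralizer ((zpowers x : Subgroup Γ) : Set Γ) ↔ x * y = y * x := by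
  rw [mem_centralizer_iff]
  constructor
  · intro h; exact h x (mem_zpowers x)
  · rintro h z ⟨k, rfl⟩
    exact (Commute.zpow_left (show Commute x y from h) k).eq

theorem solv_le {Γ : Type u} [Group Γ] [Finite Γ] {P : Type v} [Group P] [Fintype P] {p : ℕ} [hp : Fact p.Prime]
    (hP : IsPGroup p P) (φ : P →* Γ) : ∀ (n : ℕ) (M : Subgroup Γ), Nat.card M = n → Group.IsSolvable M →
    φ.range ≤ normalizer (M : Set Γ) → (Nat.card M).Coprime p →
    (∏ x : P, Nat.card ↥(M ⊓ centralizer ((zpowers (φ x) : Subgroup Γ) : Set Γ))) ^ p ≤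
      Nat.card M ^ Nat.card P *
        Nat.card ↥(M ⊓ centralizer ((φ.range : Subgroup Γ) : Set Γ)) ^ ((p - 1) * Nat.card P) := by
  classical
  intro n
  induction n using Nat.strong_induction_on with
  | _ n ih =>
  intro M hn hsol hYM hcop
  by_cases hM : M = ⊥
  · subst hM
    have h1 : ∀ C : Subgroup Γ, Nat.card ↥((⊥ : Subgroup Γ) ⊓ C) = 1 := fun C => by
      rw [bot_inf_eq]; exact card_bot
    simp only [h1, Finset.prod_const_one, one_pow, mul_one]
    exact Nat.one_le_iff_ne_zero.2 (pow_ne_zero _ Nat.card_pos.ne')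
  obtain ⟨ℓ0, hℓ0, hlt0, -⟩ := BG3.exists_elemRes_lt hM hsol
  -- maximal choice
  obtain ⟨N, hN⟩ := (Set.toFinite {N : Subgroup Γ | N < M ∧ M ≤ normalizer (N : Set Γ) ∧
    φ.range ≤ normalizer (N : Set Γ) ∧ (∀ x ∈ M, x ^ ℓ0 ∈ N) ∧ (∀ x ∈ M, ∀ y ∈ M, x * y * x⁻¹ * y⁻¹ ∈ N)}).exists_maximal
    ⟨BG3.elemRes ℓ0 M, hlt0, le_normalizer.trans (BG3.normalizer_le_normalizer_elemRes ℓ0 M),
      hYM.trans (BG3.normalizer_le_normalizer_elemRes ℓ0 M), fun x hx => BG3.pow_mem_elemRes hx,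
      fun x hx y hy => BG3.comm_mem_elemRes hx hy⟩
  obtain ⟨hNM, hMN, hYN, hpow, hcomm⟩ := hN.prop
  haveI : Fact ℓ0.Prime := ⟨hℓ0⟩
  obtain ⟨V, _, _, ⟨S⟩⟩ := BG3.exists_secMod (ℓ := ℓ0) hMN hYM hYN hpow hcomm
  haveI := S.finite
  have hcopH : ∀ H : Subgroup Γ, H ≤ φ.range → (Nat.card H).Coprime (Nat.card M) := by
    intro H hH
    have h1 : IsPGroup p φ.range := hP.of_surjective φ.rangeRestrict φ.rangeRestrict_surjective
    obtain ⟨k, hk⟩ := IsPGroup.iff_card.1 (h1.to_le hH)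
    rw [hk]
    exact (hcop.pow_right k).symm
  let T : P →* Module.End (ZMod ℓ0) V := S.ρ.comp φ.rangeRestrict
  have hT : ∀ x, T x = S.ρ ⟨φ x, ⟨x, rfl⟩⟩ := fun x => rfl
  have hzle : ∀ x : P, zpowers (φ x) ≤ φ.range := by
    intro x
    rw [zpowers_le]; exact ⟨x, rfl⟩
  have hfx : ∀ x : P, Nat.card (BG3.fix S.ρ ((zpowers (φ x)).subgroupOf φ.range)) = Nat.card (fx T x) := by
    intro x
    have h1 : BG3.fix S.ρ ((zpowers (φ x)).subgroupOf φ.range) = fx T x := by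
      ext v
      rw [mem_fx, BG3.mem_fix]
      constructor
      · intro h
        exact h ⟨φ x, ⟨x, rfl⟩⟩ (mem_zpowers (φ x))
      · rintro h ⟨y, hy⟩ ⟨k, hk⟩
        have h2 : (⟨y, hy⟩ : φ.range) = ⟨φ x, ⟨x, rfl⟩⟩ ^ k := Subtype.ext hk.symm
        rw [h2]
        have h3 : (⟨φ x, ⟨x, rfl⟩⟩ : φ.range) ∈ BG3.triv S.ρ (Submodule.span (ZMod ℓ0) {v}) := by
          rw [BG3.mem_triv]
          intro w hw
          obtain ⟨c, rfl⟩ := Submodule.mem_span_singleton.1 hw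
          rw [map_smul]
          congr 1
        exact BG3.mem_triv.1 (zpow_mem h3 k) v (Submodule.mem_span_singleton_self v)
    rw [h1]
  have hfA : Nat.card (BG3.fix S.ρ ((φ.range).subgroupOf φ.range)) = Nat.card (fxA T) := by
    have h1 : BG3.fix S.ρ ((φ.range).subgroupOf φ.range) = fxA T := by
      ext v
      rw [mem_fxA, BG3.mem_fix]
      constructor
      · intro h x
        exact h ⟨φ x, ⟨x, rfl⟩⟩ ⟨x, rfl⟩
      · rintro h ⟨y, ⟨x, rfl⟩⟩ _
        exact h x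
    rw [h1]
  have hirr : ∀ W : Submodule (ZMod ℓ0) V, (∀ x, ∀ w ∈ W, T x w ∈ W) → W = ⊥ ∨ W = ⊤ := by
    intro W hW
    by_cases hWt : W = ⊤
    · exact Or.inr hWt
    left
    let L : Subgroup Γ :=
      { carrier := {x | ∃ hx : x ∈ M, (S.π ⟨x, hx⟩).toAdd ∈ W}
        one_mem' := ⟨M.one_mem, by
          have : S.π ⟨1, M.one_mem⟩ = 1 := map_one S.π
          rw [this]; exact W.zero_mem⟩
        mul_mem' := by
          rintro a b ⟨ha, ha'⟩ ⟨hb, hb'⟩
          refine ⟨M.mul_mem ha hb, ?_⟩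
          have : S.π ⟨a * b, M.mul_mem ha hb⟩ = S.π ⟨a, ha⟩ * S.π ⟨b, hb⟩ := map_mul S.π ⟨a, ha⟩ ⟨b, hb⟩
          rw [this]; exact W.add_mem ha' hb'
        inv_mem' := by
          rintro a ⟨ha, ha'⟩
          refine ⟨M.inv_mem ha, ?_⟩
          have : S.π ⟨a⁻¹, M.inv_mem ha⟩ = (S.π ⟨a, ha⟩)⁻¹ := map_inv S.π ⟨a, ha⟩
          rw [this]; exact W.neg_mem ha' }
    have hNL : N ≤ L := by
      intro a ha
      refine ⟨hNM.le ha, ?_⟩
      have h3 : S.π ⟨a, hNM.le ha⟩ = 1 := (S.ker _).2 ha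
      rw [h3]; exact W.zero_mem
    have hLM : L ≤ M := fun a ha => ha.1
    have hLne : L ≠ M := by
      intro h
      apply hWt
      rw [eq_top_iff]
      intro v _
      obtain ⟨x, rfl⟩ := S.exists_rep v
      have h1 : (x : Γ) ∈ L := h.ge x.2
      obtain ⟨_, h2⟩ := h1
      exact h2
    have hin : L ∈ {N : Subgroup Γ | N < M ∧ M ≤ normalizer (N : Set Γ) ∧
        φ.range ≤ normalizer (N : Set Γ) ∧ (∀ x ∈ M, x ^ ℓ0 ∈ N) ∧ (∀ x ∈ M, ∀ y ∈ M, x * y * x⁻¹ * y⁻¹ ∈ N)} := by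
      refine ⟨lt_of_le_of_ne hLM hLne, ?_, ?_, fun x hx => hNL (hpow x hx), fun x hx y hy => hNL (hcomm x hx y hy)⟩
      · have key : ∀ m ∈ M, ∀ a ∈ L, m * a * m⁻¹ ∈ L := by
          intro m hm a ha
          have h1 : m * a * m⁻¹ = (m * a * m⁻¹ * a⁻¹) * a := by group
          rw [h1]
          exact L.mul_mem (hNL (hcomm m hm a (hLM ha))) ha
        intro m hm
        rw [mem_normalizer_iff]
        intro a
        refine ⟨key m hm a, fun h => ?_⟩
        have := key m⁻¹ (M.inv_mem hm) _ h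
        have h2 : m⁻¹ * (m * a * m⁻¹) * m⁻¹⁻¹ = a := by group
        rwa [h2] at this
      · have key : ∀ y : P, ∀ a ∈ L, φ y * a * (φ y)⁻¹ ∈ L := by
          rintro y a ⟨ha, ha'⟩
          have h0 : φ y * a * (φ y)⁻¹ ∈ M := (mem_normalizer_iff.1 (hYM ⟨y, rfl⟩) a).1 ha
          refine ⟨h0, ?_⟩
          have h3 := S.equiv ⟨φ y, ⟨y, rfl⟩⟩ ⟨a, ha⟩
          have h4 : BG3.cjHom hYM ⟨φ y, ⟨y, rfl⟩⟩ ⟨a, ha⟩ = ⟨φ y * a * (φ y)⁻¹, h0⟩ := rfl
          rw [h4] at h3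
          rw [h3]
          exact hW y _ ha'
        rintro _ ⟨y, rfl⟩
        rw [mem_normalizer_iff]
        intro a
        refine ⟨key y a, fun h => ?_⟩
        have := key y⁻¹ _ h
        have h2 : φ y⁻¹ * (φ y * a * (φ y)⁻¹) * (φ y⁻¹)⁻¹ = a := by rw [map_inv]; group
        rwa [h2] at this
    have hLN : L = N := le_antisymm (hN.le_of_ge hin hNL) hNL
    rw [eq_bot_iff]
    intro v hv
    obtain ⟨x, rfl⟩ := S.exists_rep v
    have h1 : (x : Γ) ∈ L := ⟨x.2, hv⟩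
    rw [hLN] at h1
    have h2 : S.π x = 1 := (S.ker x).2 h1
    rw [h2]
    exact Submodule.zero_mem _
  have h1 := irr_le T hP hirr
  have hlt : Nat.card N < n := by
    rw [← hn]; exact Set.ncard_lt_ncard hNM
  have hcopN : (Nat.card N).Coprime p := Nat.Coprime.coprime_dvd_left (card_dvd_of_le hNM.le) hcop
  have h2 := ih (Nat.card N) hlt N rfl (Cop.isSolvable_of_le hNM.le hsol) hYN hcopN
  have e1 : ∀ x : P, Nat.card ↥(M ⊓ centralizer ((zpowers (φ x) : Subgroup Γ) : Set Γ)) =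
      Nat.card (fx T x) * Nat.card ↥(N ⊓ centralizer ((zpowers (φ x) : Subgroup Γ) : Set Γ)) := by
    intro x
    rw [← S.card_fix_mul (hzle x) hNM.le hMN hYN (hcopH _ (hzle x)) hsol, hfx x]
  have e2 : Nat.card ↥(M ⊓ centralizer ((φ.range : Subgroup Γ) : Set Γ)) =
      Nat.card (fxA T) * Nat.card ↥(N ⊓ centralizer ((φ.range : Subgroup Γ) : Set Γ)) := by
    rw [← S.card_fix_mul le_rfl hNM.le hMN hYN (hcopH _ le_rfl) hsol, hfA]
  rw [Finset.prod_congr rfl (fun x _ => e1 x), Finset.prod_mul_distrib, mul_pow, e2, ← S.card_mul hNM.le,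
    mul_pow, mul_pow]
  calc _ ≤ (Nat.card V ^ Nat.card P * Nat.card (fxA T) ^ ((p - 1) * Nat.card P)) *
        (Nat.card N ^ Nat.card P *
        Nat.card ↥(N ⊓ centralizer ((φ.range : Subgroup Γ) : Set Γ)) ^ ((p - 1) * Nat.card P)) :=
        Nat.mul_le_mul h1 h2
    _ = _ := by ring

end Cfsg.Agent.H79.AvgFix
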