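import Cfsg.Agent.H79.AvgFixB
import Cfsg.Agent.Cop.Basic
import Mathlib

/-!
# Average number of fixed points of a `p`-group, part C: coprime action on an arbitrary group
-/

set_option autoImplicit false
set_option linter.style.haveILetI false
set_option linter.unusedSectionVars false

namespace Cfsg.Agent.H79.AvgFix

open Subgroup
open scoped Pointwise

universe u v

theorem card_sylow_cent {Γ : Type u} [Group Γ] [Finite Γ] {A F : Subgroup Γ} (hAF : A ≤ normalizer (F : Set Γ))
    (hcop : (Nat.card A).Coprime (Nat.card F)) (hsol : Group.IsSolvable A) (q : ℕ) [hq : Fact q.Prime]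
    (Q : Sylow q F) (hQ : A ≤ normalizer ((Q : Subgroup F).map F.subtype : Set Γ)) :
    Nat.card ↥((Q : Subgroup F).map F.subtype ⊓ centralizer (A : Set Γ)) =
      q ^ (Nat.card ↥(F ⊓ centralizer (A : Set Γ))).factorization q := by
  classical
  set Cc := F ⊓ centralizer (A : Set Γ) with hCc
  set D := (Q : Subgroup F).map F.subtype ⊓ centralizer (A : Set Γ) with hD
  have hQF : (Q : Subgroup F).map F.subtype ≤ F := map_subtype_le _
  have hDC : D ≤ Cc := inf_le_inf_right _ hQF
  have hDq : IsPGroup q D := (Q.isPGroup'.map F.subtype).to_le inf_le_left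
  obtain ⟨k, hk⟩ := IsPGroup.iff_card.1 hDq
  have h1 : k ≤ (Nat.card Cc).factorization q := by
    rw [← hq.out.pow_dvd_iff_le_factorization Nat.card_pos.ne', ← hk]
    exact card_dvd_of_le hDC
  let U0 : Sylow q Cc := default
  set U := (U0 : Subgroup Cc).map Cc.subtype with hU
  have hUC : U ≤ Cc := map_subtype_le _
  have hUcard : Nat.card U = q ^ (Nat.card Cc).factorization q := by
    rw [hU, Cop.card_map_subtype, Sylow.card_eq_multiplicity]
  have hUA : A ≤ normalizer (U : Set Γ) := by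
    intro a ha
    rw [mem_normalizer_iff]
    intro x
    constructor
    · intro hx
      have h2 := mem_centralizer_iff.1 (hUC hx).2 a ha
      rw [h2, mul_inv_cancel_right]; exact hx
    · intro hx
      have h2 := mem_centralizer_iff.1 (hUC hx).2 a ha
      have h3 : a * x * a⁻¹ = x := by
        have : a * (a * x * a⁻¹) = a * x * a⁻¹ * a := h2
        rw [inv_mul_cancel_right] at this
        exact mul_left_cancel this
      rwa [h3] at hx
  obtain ⟨P', hUP, hP'⟩ := Cop.exists_invariant_sylow_ge hAF hcop (Or.inl hsol) q (hUC.trans inf_le_left)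
    (U0.isPGroup'.map _) hUA
  obtain ⟨c, hc, hcQ⟩ := Cop.exists_centralizer_conj_sylow hAF hcop (Or.inl hsol) q P' Q hP' hQ
  have h2 : MulAut.conj (c : Γ) • (P' : Subgroup F).map F.subtype = (Q : Subgroup F).map F.subtype := by
    rw [← hcQ]
    exact (Cop.map_smul_sylow c P').symm
  have h3 : MulAut.conj (c : Γ) • U ≤ D := by
    intro x hx
    refine ⟨?_, ?_⟩
    · change x ∈ (Q : Subgroup F).map F.subtype
      rw [← h2]
      rw [Hall.mem_conj_smul] at hx ⊢
      exact hUP hx
    · rw [Hall.mem_conj_smul] at hx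
      have h4 := (hUC hx).2
      have h5 := mul_mem (mul_mem hc h4) (inv_mem hc)
      have h6 : (c : Γ) * ((c : Γ)⁻¹ * x * c) * (c : Γ)⁻¹ = x := by group
      rwa [h6] at h5
  have h4 := card_dvd_of_le h3
  rw [Hall.card_conj_smul, hUcard, hk] at h4
  have h5 := (Nat.pow_dvd_pow_iff_le_right hq.out.one_lt).1 h4
  rw [hk, le_antisymm h1 h5]

/-- the p'-group case -/
theorem pprime_le {Γ : Type u} [Group Γ] [Finite Γ] {P : Type v} [Group P] [Fintype P] {p : ℕ} [hp : Fact p.Prime]
    (hP : IsPGroup p P) (φ : P →* Γ) (M : Subgroup Γ)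
    (hYM : φ.range ≤ normalizer (M : Set Γ)) (hcop : (Nat.card M).Coprime p) :
    (∏ x : P, Nat.card ↥(M ⊓ centralizer ((zpowers (φ x) : Subgroup Γ) : Set Γ))) ^ p ≤
      Nat.card M ^ Nat.card P *
        Nat.card ↥(M ⊓ centralizer ((φ.range : Subgroup Γ) : Set Γ)) ^ ((p - 1) * Nat.card P) := by
  classical
  have hYp : IsPGroup p φ.range := hP.of_surjective φ.rangeRestrict φ.rangeRestrict_surjective
  have hcopH : ∀ H : Subgroup Γ, H ≤ φ.range → (Nat.card H).Coprime (Nat.card M) := by
    intro H hH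
    obtain ⟨k, hk⟩ := IsPGroup.iff_card.1 (hYp.to_le hH)
    rw [hk]
    exact (hcop.pow_right k).symm
  have hsolH : ∀ H : Subgroup Γ, H ≤ φ.range → Group.IsSolvable H := by
    intro H hH
    haveI : Group.IsNilpotent H := (hYp.to_le hH).isNilpotent
    infer_instance
  have hzle : ∀ x : P, zpowers (φ x) ≤ φ.range := by
    intro x
    rw [zpowers_le]; exact ⟨x, rfl⟩
  -- invariant Sylow subgroups
  have hex : ∀ q : ℕ, ∃ Q : Subgroup Γ, q.Prime → (∃ (_ : Fact q.Prime) (Q0 : Sylow q M), Q = (Q0 : Subgroup M).map M.subtype) ∧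
      φ.range ≤ normalizer (Q : Set Γ) := by
    intro q
    by_cases hq : q.Prime
    · haveI : Fact q.Prime := ⟨hq⟩
      obtain ⟨Q, hQ⟩ := Cop.exists_invariant_sylow hYM (hcopH _ le_rfl) (Or.inl (hsolH _ le_rfl)) q
      exact ⟨_, fun _ => ⟨⟨inferInstance, Q, rfl⟩, hQ⟩⟩
    · exact ⟨⊥, fun h => absurd h hq⟩
  choose Q hQ using hex
  have hprod : ∀ H : Subgroup Γ, H ≤ φ.range →
      ∏ q ∈ (Nat.card M).primeFactors, Nat.card ↥(Q q ⊓ centralizer (H : Set Γ)) =
        Nat.card ↥(M ⊓ centralizer (H : Set Γ)) := by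
    intro H hH
    have h1 : ∀ q ∈ (Nat.card M).primeFactors, Nat.card ↥(Q q ⊓ centralizer (H : Set Γ)) =
        q ^ (Nat.card ↥(M ⊓ centralizer (H : Set Γ))).factorization q := by
      intro q hq
      obtain ⟨⟨_, Q0, hQ0⟩, hQn⟩ := hQ q (Nat.prime_of_mem_primeFactors hq)
      have h2 := card_sylow_cent (hH.trans hYM) (hcopH H hH) (hsolH H hH) q Q0 (by rw [← hQ0]; exact hH.trans hQn)
      rw [hQ0]; exact h2
    rw [Finset.prod_congr rfl h1]
    have h3 : (Nat.card ↥(M ⊓ centralizer (H : Set Γ))).primeFactors ⊆ (Nat.card M).primeFactors :=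
      Nat.primeFactors_mono (card_dvd_of_le inf_le_left) Nat.card_pos.ne'
    rw [← Finset.prod_subset h3]
    · exact Nat.prod_factorization_pow_eq_self Nat.card_pos.ne'
    · intro q _ hq2
      rw [Finsupp.notMem_support_iff.1 (by rw [Nat.support_factorization]; exact hq2), pow_zero]
  have hprod0 : ∏ q ∈ (Nat.card M).primeFactors, Nat.card (Q q) = Nat.card M := by
    have h1 := hprod ⊥ bot_le
    have h2 : ∀ K : Subgroup Γ, K ⊓ centralizer (((⊥ : Subgroup Γ) : Subgroup Γ) : Set Γ) = K := by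
      intro K
      apply le_antisymm inf_le_left
      refine le_inf le_rfl ?_
      intro x _
      rw [mem_centralizer_iff]
      intro y hy
      rw [mem_bot.1 hy, one_mul, mul_one]
    rw [h2 M] at h1
    refine (Finset.prod_congr rfl (fun q _ => ?_)).trans h1
    rw [h2 (Q q)]
  have hq : ∀ q ∈ (Nat.card M).primeFactors,
      (∏ x : P, Nat.card ↥(Q q ⊓ centralizer ((zpowers (φ x) : Subgroup Γ) : Set Γ))) ^ p ≤
      Nat.card (Q q) ^ Nat.card P *
        Nat.card ↥(Q q ⊓ centralizer ((φ.range : Subgroup Γ) : Set Γ)) ^ ((p - 1) * Nat.card P) := by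
    intro q hq
    obtain ⟨⟨_, Q0, hQ0⟩, hQn⟩ := hQ q (Nat.prime_of_mem_primeFactors hq)
    have hQM : Q q ≤ M := by rw [hQ0]; exact map_subtype_le _
    have hQp : IsPGroup q (Q q) := by rw [hQ0]; exact Q0.isPGroup'.map _
    haveI : Group.IsNilpotent (Q q) := hQp.isNilpotent
    exact solv_le hP φ _ (Q q) rfl inferInstance hQn (Nat.Coprime.coprime_dvd_left (card_dvd_of_le hQM) hcop)
  have hfin := Finset.prod_le_prod' hq
  rw [Finset.prod_mul_distrib, Finset.prod_pow, Finset.prod_pow, Finset.prod_pow, hprod0, hprod _ le_rfl,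
    Finset.prod_comm] at hfin
  rw [Finset.prod_congr rfl (fun x _ => hprod _ (hzle x))] at hfin
  exact hfin

end Cfsg.Agent.H79.AvgFix
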