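import Mathlib
import Cfsg.Prelude.Def_Blocks
import Cfsg.Agent.H79.Count
import Cfsg.Agent.Blk.Osima
import Cfsg.Agent.Blk.Orth2
import Cfsg.Agent.BlkInd.FirstMain
import Cfsg.Agent.BlkInd.DefectApp

/-!
# Blocks with a given defect group from separated classes
-/

set_option autoImplicit false
set_option linter.style.haveILetI false

open Module
open scoped ComplexConjugate

namespace Cfsg.Agent.H79

open Cfsg Cfsg.Agent.CharBase Cfsg.Agent.Blk Cfsg.Agent.BlkInd

universe u

section coeff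

variable {G : Type u} [Group G] [Fintype G] {M : Ideal AlgInt}

open Classical in
/-- sum over the members of a block of `χ u χ v` -/
theorem sum_block_mul [Fintype (IrrCharacter G)] (B : Set (IrrCharacter G)) (u v : G) :
    ∑ χ : IrrCharacter G, (if χ ∈ B then (χ : G → ℂ) u * (χ : G → ℂ) v else 0) =
      ∑ a : G, blockCoeff B (a * u⁻¹ * a⁻¹ * v⁻¹) := by
  have hc : (Nat.card G : ℂ) ≠ 0 := by exact_mod_cast (Nat.card_pos (α := G)).ne'
  have h1 : ∀ g : G, blockCoeff B g = (Nat.card G : ℂ)⁻¹ *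
      ∑ χ : IrrCharacter G, (if χ ∈ B then (χ : G → ℂ) 1 * (χ : G → ℂ) g⁻¹ else 0) := by
    intro g
    unfold blockCoeff
    rw [finsum_mem_eq_sum_ite]
    congr 1
    refine Finset.sum_congr rfl (fun χ _ => ?_)
    rw [irr_inv]
  simp only [h1]
  rw [← Finset.mul_sum, Finset.sum_comm, Finset.mul_sum]
  refine Finset.sum_congr rfl (fun χ _ => ?_)
  split_ifs with h
  · rw [← Finset.mul_sum]
    have h2 : ∑ a : G, (χ : G → ℂ) (a * u⁻¹ * a⁻¹ * v⁻¹)⁻¹ =
        (Nat.card G : ℂ) * (χ : G → ℂ) v * (χ : G → ℂ) u / (χ : G → ℂ) 1 := by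
      rw [← CharBase.sum_conj_mul χ.2 v u]
      refine Finset.sum_congr rfl (fun a _ => ?_)
      congr 1
      group
    rw [h2]
    have h3 := CharBase.irr_one_ne_zero χ.2
    field_simp
  · simp

/-- the multiplicity of the trivial character of `S` -/
theorem exists_mult (S : Subgroup G) (χ : IrrCharacter G) [Fintype S] :
    ∃ m : ℕ, ∑ u : S, (χ : G → ℂ) u = (Nat.card S : ℂ) * m :=
  sum_subgroup_eq (CharBase.irr_isCharacter χ) S

open Classical in
theorem block_mult_sum [Fintype (IrrCharacter G)] (B : Set (IrrCharacter G)) (S : Subgroup G)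
    (m : IrrCharacter G → ℕ) (hm : ∀ χ : IrrCharacter G, ∑ u : S, (χ : G → ℂ) u = (Nat.card S : ℂ) * m χ)
    (x : G) :
    ∑ χ : IrrCharacter G, (if χ ∈ B then (m χ : ℂ) * (χ : G → ℂ) x⁻¹ else 0) =
      ∑ q : (G ⧸ S) × G, if q.2 • q.1 = q.1 then blockCoeff B (q.2 * x) else 0 := by
  have hS : (Nat.card S : ℂ) ≠ 0 := by exact_mod_cast (Nat.card_pos (α := S)).ne'
  apply mul_left_cancel₀ hS
  have h1 : (Nat.card S : ℂ) * ∑ χ : IrrCharacter G, (if χ ∈ B then (m χ : ℂ) * (χ : G → ℂ) x⁻¹ else 0)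
      = ∑ u : S, ∑ a : G, blockCoeff B (a * (u : G) * a⁻¹ * x) := by
    have h2 : ∀ u : S, ∑ a : G, blockCoeff B (a * (u : G) * a⁻¹ * x) =
        ∑ χ : IrrCharacter G, (if χ ∈ B then (χ : G → ℂ) (u : G)⁻¹ * (χ : G → ℂ) x⁻¹ else 0) := by
      intro u
      rw [sum_block_mul, inv_inv, inv_inv]
    rw [Finset.sum_congr rfl (fun u _ => h2 u), Finset.sum_comm, Finset.mul_sum]
    refine Finset.sum_congr rfl (fun χ _ => ?_)
    split_ifs with h
    · rw [← Finset.sum_mul]
      have h3 : ∑ u : S, (χ : G → ℂ) (u : G)⁻¹ = ∑ u : S, (χ : G → ℂ) u := by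
        apply Fintype.sum_equiv (Equiv.inv S)
        intro u
        simp
      rw [h3, hm]; ring
    · simp
  rw [h1, Finset.sum_comm]
  have h4 : ∀ a : G, ∑ u : S, blockCoeff B (a * (u : G) * a⁻¹ * x) =
      ∑ z : G, if z • (QuotientGroup.mk a : G ⧸ S) = QuotientGroup.mk a then blockCoeff B (z * x) else 0 := by
    intro a
    have h5 : ∀ z : G, z • (QuotientGroup.mk a : G ⧸ S) = QuotientGroup.mk a ↔ a⁻¹ * z * a ∈ S := by
      intro z
      rw [MulAction.Quotient.smul_mk, eq_comm, QuotientGroup.eq, smul_eq_mul, mul_assoc]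
    simp only [h5]
    rw [← Finset.sum_filter]
    symm
    refine Finset.sum_bij' (fun z hz => (⟨a⁻¹ * z * a, (Finset.mem_filter.mp hz).2⟩ : S))
      (fun u _ => a * (u : G) * a⁻¹) ?_ ?_ ?_ ?_ ?_
    · intro z _; exact Finset.mem_univ _
    · intro u _
      rw [Finset.mem_filter]
      refine ⟨Finset.mem_univ _, ?_⟩
      have : a⁻¹ * (a * (u : G) * a⁻¹) * a = u := by group
      rw [this]; exact u.2
    · intro z _
      show a * (a⁻¹ * z * a) * a⁻¹ = z
      group
    · intro u _
      apply Subtype.ext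
      show a⁻¹ * (a * (u : G) * a⁻¹) * a = u
      group
    · intro z _
      show blockCoeff B (z * x) = blockCoeff B (a * (a⁻¹ * z * a) * a⁻¹ * x)
      congr 1
      group
  rw [Finset.sum_congr rfl (fun a _ => h4 a)]
  -- regroup over the quotient
  set F : G ⧸ S → ℂ := fun q => ∑ z : G, if z • q = q then blockCoeff B (z * x) else 0 with hF
  have h6 : ∑ a : G, F (QuotientGroup.mk a) = (Nat.card S : ℂ) * ∑ q : G ⧸ S, F q := by
    have h7 : ∑ a : G, F (QuotientGroup.mk a) = ∑ y : (G ⧸ S) × S, F y.1 := by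
      apply Fintype.sum_equiv (Subgroup.groupEquivQuotientProdSubgroup (s := S))
      intro a
      rfl
    rw [h7, Fintype.sum_prod_type]
    simp only [Finset.sum_const, Finset.card_univ, nsmul_eq_mul, Nat.card_eq_fintype_card]
    rw [Finset.mul_sum]
  rw [h6, Fintype.sum_prod_type]

/-- the action on pairs (coset, element) -/
@[instance_reducible] def pairAct (D S : Subgroup G) : MulAction D ((G ⧸ S) × G) where
  smul d y := ((d : G) • y.1, (d : G) * y.2 * (d : G)⁻¹)
  one_smul y := by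
    show (((1 : D) : G) • y.1, ((1 : D) : G) * y.2 * ((1 : D) : G)⁻¹) = y
    simp
  mul_smul d e y := by
    show (((d * e : D) : G) • y.1, ((d * e : D) : G) * y.2 * ((d * e : D) : G)⁻¹) =
      ((d : G) • ((e : G) • y.1), (d : G) * ((e : G) * y.2 * (e : G)⁻¹) * (d : G)⁻¹)
    rw [smul_smul]
    push_cast
    congr 1
    group

open Classical in
/-- If the block sum at `x` is not in the local ideal, every `p`-subgroup centralizing `x` is contained
in a defect group. -/
theorem exists_defect_of_mult_sum {p : ℕ} [Fact p.Prime] (hMod : IsPModular p M) [Fintype (IrrCharacter G)]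
    {B : Set (IrrCharacter G)} (hB : IsPBlock M B) (S : Subgroup G)
    (m : IrrCharacter G → ℕ) (hm : ∀ χ : IrrCharacter G, ∑ u : S, (χ : G → ℂ) u = (Nat.card S : ℂ) * m χ)
    (x : G) {D : Subgroup G} (hD : IsPGroup p D) (hx : x ∈ Subgroup.centralizer (D : Set G))
    (h : ¬ MemLocalIdeal M (∑ χ : IrrCharacter G, (if χ ∈ B then (m χ : ℂ) * (χ : G → ℂ) x⁻¹ else 0))) :
    ∃ E : Subgroup G, IsDefectGroup p M B E ∧ D ≤ E := by
  haveI := isPrime_of_isPModular hMod
  rw [block_mult_sum B S m hm x] at h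
  have h1 := @mli_sum_sub_fixed M _ p hMod D _ hD ((G ⧸ S) × G) _ (pairAct D S)
    (fun q => if q.2 • q.1 = q.1 then blockCoeff B (q.2 * x) else 0)
    (fun q => by
      split_ifs
      · exact mlr_blockCoeff hB _
      · exact mlr_zero)
    (fun d q => by
      have hd := (Subgroup.mem_centralizer_iff.mp hx) d d.2
      have h2 : ((d : G) * q.2 * (d : G)⁻¹) • ((d : G) • q.1) = (d : G) • q.1 ↔ q.2 • q.1 = q.1 := by
        rw [smul_smul, show (d : G) * q.2 * (d : G)⁻¹ * (d : G) = (d : G) * q.2 by group, ← smul_smul]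
        exact (MulAction.injective (d : G)).eq_iff
      have h3 : blockCoeff B ((d : G) * q.2 * (d : G)⁻¹ * x) = blockCoeff B (q.2 * x) := by
        symm
        apply blockCoeff_conj
        rw [isConj_iff]
        refine ⟨d, ?_⟩
        have : (d : G)⁻¹ * x = x * (d : G)⁻¹ := by
          rw [inv_mul_eq_iff_eq_mul, ← mul_assoc, hd]; group
        rw [mul_assoc ((d : G) * q.2), this]; group
      show (if ((d : G) * q.2 * (d : G)⁻¹) • ((d : G) • q.1) = (d : G) • q.1 then
        blockCoeff B ((d : G) * q.2 * (d : G)⁻¹ * x) else 0) = _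
      rw [h3]
      by_cases h4 : q.2 • q.1 = q.1
      · rw [if_pos h4, if_pos (h2.mpr h4)]
      · rw [if_neg h4, if_neg (fun h5 => h4 (h2.mp h5))])
  by_contra hne
  push Not at hne
  apply h
  have key : ∀ q ∈ Finset.univ.filter
    (fun q : (G ⧸ S) × G => ∀ d : D, @HSMul.hSMul D ((G ⧸ S) × G) ((G ⧸ S) × G)
      (@instHSMul D ((G ⧸ S) × G) (pairAct D S).toSMul) d q = q),
      MemLocalIdeal M (if q.2 • q.1 = q.1 then blockCoeff B (q.2 * x) else 0) := by
    intro q hq
    split_ifs
    · by_contra hc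
      rw [Finset.mem_filter] at hq
      have h6 : q.2 * x ∈ Subgroup.centralizer (D : Set G) := by
        apply Subgroup.mul_mem _ _ hx
        rw [Subgroup.mem_centralizer_iff]
        intro d hd
        have h7 : (((⟨d, hd⟩ : D) : G) • q.1, ((⟨d, hd⟩ : D) : G) * q.2 * ((⟨d, hd⟩ : D) : G)⁻¹) = q :=
          hq.2 ⟨d, hd⟩
        have h8 : d * q.2 * d⁻¹ = q.2 := congrArg Prod.snd h7
        exact mul_inv_eq_iff_eq_mul.mp h8
      obtain ⟨E, hE, hDE⟩ := exists_le_defect_of_coeff hMod hB hD h6 hc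
      exact hne E hE hDE
    · exact mli_zero
  have h5 := mli_add h1 (w := ∑ q ∈ Finset.univ.filter (fun q : (G ⧸ S) × G => ∀ d : D,
      @HSMul.hSMul D ((G ⧸ S) × G) ((G ⧸ S) × G)
      (@instHSMul D ((G ⧸ S) × G) (pairAct D S).toSMul) d q = q),
      (if q.2 • q.1 = q.1 then blockCoeff B (q.2 * x) else 0)) (mli_sum _ _ key)
  convert h5 using 1
  rw [eq_comm, sub_add_eq_add_sub, sub_eq_iff_eq_add, add_right_inj]
  refine Finset.sum_congr ?_ (fun _ _ => rfl)
  ext q
  simp only [Finset.mem_filter]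

end coeff

section pairing

variable {G : Type u} [Group G] [Finite G]

/-- The pairing identity for separated classes. -/
theorem sum_sep {p : ℕ} [Fact p.Prime] [Fintype G] [Fintype (IrrCharacter G)] (S : Sylow p G)
    [Fintype (S : Subgroup G)] (m : IrrCharacter G → ℕ)
    (hm : ∀ χ : IrrCharacter G, ∑ u : (S : Subgroup G), (χ : G → ℂ) u = (Nat.card S : ℂ) * m χ)
    {x y : G} 
    (hsep : ∀ g h : G, IsConj x g → IsConj y h → ∀ k : ℕ, 0 < k → orderOf (g * h⁻¹) ≠ p ^ k) :
    (¬ IsConj x y → ∑ χ : IrrCharacter G, centralChar (χ : G → ℂ) x * ((m χ : ℂ) * (χ : G → ℂ) y⁻¹) = 0) ∧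
    (x = y → ∑ χ : IrrCharacter G, centralChar (χ : G → ℂ) x * ((m χ : ℂ) * (χ : G → ℂ) y⁻¹) =
      ((S : Subgroup G).index : ℂ)) := by
  classical
  have hc : (Nat.card G : ℂ) ≠ 0 := by exact_mod_cast (Nat.card_pos (α := G)).ne'
  have hS : (Nat.card (S : Subgroup G) : ℂ) ≠ 0 := by exact_mod_cast (Nat.card_pos (α := S)).ne'
  have hCx : (Nat.card (Subgroup.centralizer ({x} : Set G)) : ℂ) ≠ 0 := by
    exact_mod_cast Nat.card_pos.ne'
  have hkey : ∀ a b : G, a * x * a⁻¹ * (b * y⁻¹ * b⁻¹) ∈ (S : Subgroup G) ↔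
      a * x * a⁻¹ = b * y * b⁻¹ := by
    intro a b
    constructor
    · intro h
      have h2 := hsep (a * x * a⁻¹) (b * y * b⁻¹) (isConj_iff.mpr ⟨a, rfl⟩) (isConj_iff.mpr ⟨b, rfl⟩)
      have h3 : (b * y * b⁻¹)⁻¹ = b * y⁻¹ * b⁻¹ := by group
      rw [h3] at h2
      obtain ⟨k, hk⟩ := IsPGroup.iff_orderOf.mp S.2 ⟨_, h⟩
      rw [← Subgroup.orderOf_coe] at hk
      change orderOf (a * x * a⁻¹ * (b * y⁻¹ * b⁻¹)) = p ^ k at hk
      rcases Nat.eq_zero_or_pos k with h0 | h0
      · rw [h0, pow_zero, orderOf_eq_one_iff] at hk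
        calc a * x * a⁻¹ = a * x * a⁻¹ * (b * y⁻¹ * b⁻¹) * (b * y * b⁻¹) := by group
          _ = b * y * b⁻¹ := by rw [hk, one_mul]
      · exact absurd hk (h2 k h0)
    · intro h
      rw [h]
      have : b * y * b⁻¹ * (b * y⁻¹ * b⁻¹) = 1 := by group
      rw [this]; exact Subgroup.one_mem _
  have hidx : (Nat.card (Subgroup.centralizer ({x} : Set G)) : ℂ) *
      ((Subgroup.centralizer ({x} : Set G)).index : ℂ) = (Nat.card G : ℂ) := by
    exact_mod_cast Subgroup.card_mul_index (Subgroup.centralizer ({x} : Set G))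
  have hidS : (Nat.card (S : Subgroup G) : ℂ) * ((S : Subgroup G).index : ℂ) = (Nat.card G : ℂ) := by
    exact_mod_cast Subgroup.card_mul_index (S : Subgroup G)
  -- rewrite the right hand side
  have h2 : (Nat.card G : ℂ) * ∑ χ : IrrCharacter G,
      (χ : G → ℂ) x * (χ : G → ℂ) y⁻¹ * (∑ u : (S : Subgroup G), (χ : G → ℂ) u) / (χ : G → ℂ) 1 =
      (Nat.card (S : Subgroup G) : ℂ) * (Nat.card (Subgroup.centralizer ({x} : Set G)) : ℂ) *
      ∑ χ : IrrCharacter G, centralChar (χ : G → ℂ) x * ((m χ : ℂ) * (χ : G → ℂ) y⁻¹) := by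
    rw [Finset.mul_sum, Finset.mul_sum]
    refine Finset.sum_congr rfl (fun χ _ => ?_)
    rw [hm χ]
    unfold centralChar
    rw [← hidx]
    ring
  have h1 : (((Finset.univ : Finset (G × G)).filter
      (fun q => q.1 * x * q.1⁻¹ * (q.2 * y⁻¹ * q.2⁻¹) ∈ (S : Subgroup G))).card : ℂ) =
      (Nat.card (S : Subgroup G) : ℂ) * (Nat.card (Subgroup.centralizer ({x} : Set G)) : ℂ) *
      ∑ χ : IrrCharacter G, centralChar (χ : G → ℂ) x * ((m χ : ℂ) * (χ : G → ℂ) y⁻¹) := by
    rw [← h2]
    convert card_pairs_subgroup x y⁻¹ (S : Subgroup G)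
  constructor
  · intro hne
    have h3 : ((Finset.univ : Finset (G × G)).filter
      (fun q => q.1 * x * q.1⁻¹ * (q.2 * y⁻¹ * q.2⁻¹) ∈ (S : Subgroup G))) = ∅ := by
      rw [Finset.filter_eq_empty_iff]
      intro q _ hq
      rw [hkey] at hq
      apply hne
      rw [isConj_iff]
      refine ⟨q.2⁻¹ * q.1, ?_⟩
      calc q.2⁻¹ * q.1 * x * (q.2⁻¹ * q.1)⁻¹ = q.2⁻¹ * (q.1 * x * q.1⁻¹) * q.2 := by group
        _ = y := by rw [hq]; group
    rw [h3, Finset.card_empty, Nat.cast_zero] at h1
    exact (mul_eq_zero.mp h1.symm).resolve_left (mul_ne_zero hS hCx)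
  · rintro rfl
    have h3 : ((Finset.univ : Finset (G × G)).filter
      (fun q => q.1 * x * q.1⁻¹ * (q.2 * x⁻¹ * q.2⁻¹) ∈ (S : Subgroup G))) =
      ((Finset.univ : Finset (G × G)).filter
      (fun q => q.1 * x * q.1⁻¹ = q.2 * x * q.2⁻¹)) := by
      ext q
      simp only [Finset.mem_filter, Finset.mem_univ, true_and, hkey]
    have h4 := card_pairs_eq x
    have h5 : (((Finset.univ : Finset (G × G)).filter
      (fun q => q.1 * x * q.1⁻¹ = q.2 * x * q.2⁻¹)).card : ℂ) =
      (Nat.card G : ℂ) * (Nat.card (Subgroup.centralizer ({x} : Set G)) : ℂ) := by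
      rw [← Nat.cast_mul, ← h4]
    rw [h3, h5] at h1
    apply mul_left_cancel₀ (mul_ne_zero hS hCx)
    rw [← h1, ← hidS]
    ring

end pairing

section linalg

variable {k : Type*} [Field k]

/-- From `A C = diagonal` with nonzero entries: a nonvanishing maximal minor. -/
theorem exists_minor {n κ : Type*} [Fintype n] [DecidableEq n] [Fintype κ] (A : n → κ → k) (C : κ → n → k)
    (h : Matrix.det (Matrix.of fun i j => ∑ b, A i b * C b j) ≠ 0) :
    ∃ f : n → κ, Function.Injective f ∧ Matrix.det (Matrix.of fun i j => A j (f i)) ≠ 0 := by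
  classical
  have h1 : Matrix.det (Matrix.of fun i j => ∑ b, A i b * C b j) =
      ∑ f : n → κ, Matrix.det (Matrix.of fun i j => C (f i) i * A j (f i)) := by
    rw [← Matrix.det_transpose]
    have h2 : Matrix.transpose (Matrix.of fun i j => ∑ b, A i b * C b j) = fun i => ∑ b, (fun j => C b i * A j b) := by
      ext i j
      simp only [Matrix.transpose_apply, Matrix.of_apply, Finset.sum_apply]
      exact Finset.sum_congr rfl (fun b _ => mul_comm _ _)
    rw [h2]
    have h3 := (Matrix.detRowAlternating (R := k) (n := n)).toMultilinearMap.map_sum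
      (fun (i : n) (b : κ) => (fun j => C b i * A j b : n → k))
    exact h3
  rw [h1] at h
  obtain ⟨f, -, hf⟩ := Finset.exists_ne_zero_of_sum_ne_zero h
  have h4 : Matrix.det (Matrix.of fun i j => A j (f i)) ≠ 0 := by
    intro h0
    apply hf
    have h5 := Matrix.det_mul_column (fun i => C (f i) i) (Matrix.of fun i j => A j (f i))
    simp only [Matrix.of_apply] at h5
    rw [h5, h0, mul_zero]
  refine ⟨f, ?_, h4⟩
  intro i j hij
  by_contra hne
  apply h4
  exact Matrix.det_zero_of_row_eq hne (by ext l; simp only [Matrix.of_apply, hij])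

end linalg

section rddet

variable {M : Ideal AlgInt} [hM : M.IsPrime]

theorem mlr_det {n : Type*} [Fintype n] [DecidableEq n] (A : Matrix n n ℂ) (h : ∀ i j, MemLocalRing M (A i j)) :
    MemLocalRing M A.det := by
  rw [Matrix.det_apply']
  refine mlr_sum _ _ (fun σ _ => mlr_mul (mlr_intCast _) (mlr_prod _ _ (fun i _ => h _ _)))

theorem rd_det {n : Type*} [Fintype n] [DecidableEq n] (A : Matrix n n ℂ) (h : ∀ i j, MemLocalRing M (A i j)) :
    rd M A.det = (Matrix.of fun i j => rd M (A i j)).det := by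
  rw [Matrix.det_apply', Matrix.det_apply', rd_sum _ _ (fun σ _ => mlr_mul (mlr_intCast _)
    (mlr_prod _ _ (fun i _ => h _ _)))]
  refine Finset.sum_congr rfl (fun σ _ => ?_)
  rw [rd_mul (mlr_intCast _) (mlr_prod _ _ (fun i _ => h _ _)), rd_intCast, rd_prod _ _ (fun i _ => h _ _)]
  rfl

end rddet

section final

variable {G : Type u} [Group G] [Finite G]

theorem exists_separated_blocks (p : ℕ) [Fact p.Prime] (M : Ideal AlgInt) (hM : IsPModular p M)
    (D : Subgroup G) {r : ℕ} (x : Fin r → G) (hx : ∀ i j : Fin r, IsConj (x i) (x j) → i = j)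
    (hD : ∀ i : Fin r, SylC p (x i) D)
    (hsep : ∀ i j : Fin r, ∀ g h : G, IsConj (x i) g → IsConj (x j) h → ∀ k : ℕ, 0 < k →
      orderOf (g * h⁻¹) ≠ p ^ k) :
    ∃ B : Fin r → Set (IrrCharacter G), Function.Injective B ∧
      (∀ i : Fin r, IsPBlock M (B i) ∧ IsDefectGroup p M (B i) D) ∧
      ∀ χ : Fin r → IrrCharacter G,
        (∀ i : Fin r, χ i ∈ B i ∧ blockHeight p (B i) (χ i : G → ℂ) = 0) →
        ¬ MemLocalIdeal M (Matrix.det (Matrix.of fun i j : Fin r => (χ i : G → ℂ) (x j))) := by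
  classical
  haveI := isPrime_of_isPModular hM
  haveI := charP_kM hM
  haveI := Fintype.ofFinite G
  haveI := Fintype.ofFinite (IrrCharacter G)
  have hpp : p.Prime := Fact.out
  let S : Sylow p G := default
  choose m hm using fun χ : IrrCharacter G => exists_mult (S : Subgroup G) χ
  let β := {B : Set (IrrCharacter G) // IsPBlock M B}
  haveI := Fintype.ofFinite β
  let rep : β → IrrCharacter G := fun b => (isPBlock_nonempty b.2).choose
  have hrep : ∀ b : β, rep b ∈ b.1 := fun b => (isPBlock_nonempty b.2).choose_spec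
  let c : β → Fin r → ℂ := fun b j =>
    ∑ χ : IrrCharacter G, (if χ ∈ b.1 then (m χ : ℂ) * (χ : G → ℂ) (x j)⁻¹ else 0)
  let A : Fin r → β → kM M := fun i b =>
    if IsDefectGroup p M b.1 D then rd M (centralChar (rep b : G → ℂ) (x i)) else 0
  have hmi : ∀ (χ : IrrCharacter G) (j : Fin r), MemLocalRing M ((m χ : ℂ) * (χ : G → ℂ) (x j)⁻¹) :=
    fun χ j => mlr_mul (mlr_natCast _) (mlr_irr χ _)
  have hci : ∀ b j, MemLocalRing M (c b j) := fun b j => mlr_sum _ _ (fun χ _ => by
    split_ifs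
    · exact hmi χ j
    · exact mlr_zero)
  have hprod : ∀ (b : β) (i j : Fin r), A i b * rd M (c b j) =
      rd M (centralChar (rep b : G → ℂ) (x i)) * rd M (c b j) := by
    intro b i j
    show (if IsDefectGroup p M b.1 D then rd M (centralChar (rep b : G → ℂ) (x i)) else 0) * _ = _
    split_ifs with hb
    · rfl
    · rw [zero_mul, eq_comm]
      by_contra hne
      apply hb
      obtain ⟨h1, h2⟩ := mul_ne_zero_iff.mp hne
      rw [Ne, rd_eq_zero_iff (hci b j)] at h2
      rw [Ne, rd_eq_zero_iff (Blk.mlr_centralChar _ _)] at h1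
      obtain ⟨E, hE, hDE⟩ := exists_defect_of_mult_sum hM b.2 (S : Subgroup G) m hm (x j)
        (hD j).isPGroup (hD j).mem_centralizer h2
      obtain ⟨y, hy⟩ := exists_defect_ge hM b.2 hE (hrep b) h1 (hD i)
      have h3 : Nat.card E ≤ Nat.card D := by
        have h4 : Nat.card (E.map (MulAut.conj y).toMonoidHom : Subgroup G) = Nat.card E :=
          Subgroup.card_map_of_injective (MulAut.conj y).injective
        rw [← h4]
        exact Nat.card_le_card_of_injective _ (Subgroup.inclusion_injective hy)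
      have h5 : D = E := Subgroup.eq_of_le_of_card_ge hDE h3
      rwa [h5]
  have hmain : ∀ i j : Fin r, ∑ b : β, A i b * rd M (c b j) =
      if i = j then (((S : Subgroup G).index : ℕ) : kM M) else 0 := by
    intro i j
    have h1 : ∑ b : β, A i b * rd M (c b j) =
        rd M (∑ χ : IrrCharacter G, centralChar (χ : G → ℂ) (x i) * ((m χ : ℂ) * (χ : G → ℂ) (x j)⁻¹)) := by
      rw [rd_sum _ _ (fun χ _ => mlr_mul (Blk.mlr_centralChar χ _) (hmi χ j))]
      have h2 : ∀ χ : IrrCharacter G, rd M (centralChar (χ : G → ℂ) (x i) *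
          ((m χ : ℂ) * (χ : G → ℂ) (x j)⁻¹)) = ∑ b : β, (if χ ∈ b.1 then
            rd M (centralChar (χ : G → ℂ) (x i)) * rd M ((m χ : ℂ) * (χ : G → ℂ) (x j)⁻¹) else 0) := by
        intro χ
        rw [Finset.sum_eq_single (⟨blockOf M (χ : G → ℂ), isPBlock_blockOf χ⟩ : β)]
        · rw [if_pos (mem_blockOf_self χ), rd_mul (Blk.mlr_centralChar χ _) (hmi χ j)]
        · intro b _ hb
          rw [if_neg]
          intro h
          apply hb
          apply Subtype.ext
          exact isPBlock_eq_blockOf b.2 h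
        · intro h; exact absurd (Finset.mem_univ _) h
      rw [Finset.sum_congr rfl (fun χ _ => h2 χ), Finset.sum_comm]
      refine Finset.sum_congr rfl (fun b _ => ?_)
      rw [hprod b i j]
      show _ * rd M (∑ χ : IrrCharacter G, (if χ ∈ b.1 then (m χ : ℂ) * (χ : G → ℂ) (x j)⁻¹ else 0)) = _
      rw [rd_sum _ _ (fun χ _ => by
        split_ifs
        · exact hmi χ j
        · exact mlr_zero), Finset.mul_sum]
      refine Finset.sum_congr rfl (fun χ _ => ?_)
      split_ifs with hχ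
      · congr 1
        rw [rd_eq_iff (Blk.mlr_centralChar _ _) (Blk.mlr_centralChar _ _)]
        exact sameBlock_of_mem b.2 (hrep b) hχ (x i)
      · rw [rd_zero, mul_zero]
    rw [h1]
    have h3 := sum_sep S m hm (x := x i) (y := x j) (hsep i j)
    split_ifs with hij
    · rw [h3.2 (by rw [hij]), rd_natCast]
    · rw [h3.1 (fun h => hij (hx i j h)), rd_zero]
  have hidx : (((S : Subgroup G).index : ℕ) : kM M) ≠ 0 := by
    intro h
    rw [CharP.cast_eq_zero_iff (kM M) p] at h
    exact S.not_dvd_index h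
  have hdet : Matrix.det (Matrix.of fun i j : Fin r => ∑ b : β, A i b * rd M (c b j)) ≠ 0 := by
    have h1 : (Matrix.of fun i j : Fin r => ∑ b : β, A i b * rd M (c b j)) =
        Matrix.diagonal (fun _ : Fin r => (((S : Subgroup G).index : ℕ) : kM M)) := by
      ext i j
      rw [Matrix.of_apply, hmain, Matrix.diagonal_apply]
    rw [h1, Matrix.det_diagonal]
    exact Finset.prod_ne_zero_iff.mpr (fun _ _ => hidx)
  obtain ⟨f, hf, hfd⟩ := exists_minor A (fun b j => rd M (c b j)) hdet
  have hdef : ∀ k : Fin r, IsDefectGroup p M (f k).1 D := by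
    intro k
    by_contra h
    apply hfd
    apply Matrix.det_eq_zero_of_row_eq_zero k
    intro j
    show (if IsDefectGroup p M (f k).1 D then _ else 0) = 0
    rw [if_neg h]
  refine ⟨fun k => (f k).1, fun a b hab => hf (Subtype.ext hab), fun k => ⟨(f k).2, hdef k⟩, ?_⟩
  intro χ hχ hmem
  have hχi : ∀ k j : Fin r, MemLocalRing M ((χ k : G → ℂ) (x j)) := fun k j => mlr_irr _ _
  set Y : Matrix (Fin r) (Fin r) ℂ := Matrix.of fun i j : Fin r => (χ i : G → ℂ) (x j) with hY
  have hYi : ∀ k j, MemLocalRing M (Y k j) := fun k j => hχi k j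
  rw [← rd_eq_zero_iff (mlr_det Y hYi), rd_det Y hYi] at hmem
  simp only [hY, Matrix.of_apply] at hmem
  -- the units
  let u : Fin r → ℕ := fun k => ordCompl[p] (charDegree (χ k : G → ℂ))
  let v : Fin r → ℕ := fun j => ordCompl[p] (Nat.card (Subgroup.centralizer ({x j} : Set G)))
  let w : ℕ := ordCompl[p] (Nat.card G)
  have hu : ∀ k, (u k : kM M) ≠ 0 := by
    intro k h
    rw [CharP.cast_eq_zero_iff (kM M) p] at h
    exact Nat.not_dvd_ordCompl hpp (BlkC.charDegree_pos (χ k)).ne' h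
  have hv : ∀ j, (v j : kM M) ≠ 0 := by
    intro j h
    rw [CharP.cast_eq_zero_iff (kM M) p] at h
    exact Nat.not_dvd_ordCompl hpp Nat.card_pos.ne' h
  have hkey : ∀ k j : Fin r, (w : kM M) * rd M ((χ k : G → ℂ) (x j)) =
      (u k : kM M) * ((v j : kM M) * A j (f k)) := by
    intro k j
    have h1 : A j (f k) = rd M (centralChar (χ k : G → ℂ) (x j)) := by
      show (if IsDefectGroup p M (f k).1 D then _ else 0) = _
      rw [if_pos (hdef k), rd_eq_iff (Blk.mlr_centralChar _ _) (Blk.mlr_centralChar _ _)]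
      exact sameBlock_of_mem (f k).2 (hrep (f k)) (hχ k).1 (x j)
    rw [h1]
    have h2 : (w : ℂ) * (χ k : G → ℂ) (x j) = (u k : ℂ) * ((v j : ℂ) * centralChar (χ k : G → ℂ) (x j)) := by
      have e1 : p ^ (charDegree (χ k : G → ℂ)).factorization p * u k = charDegree (χ k : G → ℂ) :=
        Nat.ordProj_mul_ordCompl_eq_self _ p
      have e2 : p ^ (Nat.card (Subgroup.centralizer ({x j} : Set G))).factorization p * v j =
          Nat.card (Subgroup.centralizer ({x j} : Set G)) := Nat.ordProj_mul_ordCompl_eq_self _ p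
      have e3 : p ^ (Nat.card G).factorization p * w = Nat.card G := Nat.ordProj_mul_ordCompl_eq_self _ p
      have e4 : (Nat.card (Subgroup.centralizer ({x j} : Set G))).factorization p =
          blockDefect p (f k).1 :=
        factorization_centralizer_of_sylC hM (hD j) (card_defectGroup hM (f k).2 (hdef k))
      have e5 := BlkC.defect_add_nuMin (p := p) (B := (f k).1) ⟨χ k, (hχ k).1⟩
      have e6 : (charDegree (χ k : G → ℂ)).factorization p = BlkC.nuMin p (f k).1 :=
        (BlkC.height_eq_zero_iff (hχ k).1).mp (hχ k).2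
      have hp0 : (p : ℂ) ≠ 0 := by exact_mod_cast hpp.ne_zero
      have hd0 : (χ k : G → ℂ) 1 ≠ 0 := CharBase.irr_one_ne_zero (χ k).2
      have hidx : (Nat.card (Subgroup.centralizer ({x j} : Set G)) : ℂ) *
          ((Subgroup.centralizer ({x j} : Set G)).index : ℂ) = (Nat.card G : ℂ) := by
        exact_mod_cast Subgroup.card_mul_index (Subgroup.centralizer ({x j} : Set G))
      have h3 : (χ k : G → ℂ) 1 * (Nat.card (Subgroup.centralizer ({x j} : Set G)) : ℂ) *
          centralChar (χ k : G → ℂ) (x j) = (Nat.card G : ℂ) * (χ k : G → ℂ) (x j) := by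
        unfold centralChar
        rw [← hidx]
        field_simp
      rw [BlkC.charDegree_spec (χ k), ← e1, ← e2, ← e3] at h3
      push_cast at h3
      rw [e4, e6] at h3
      have h4 : (p : ℂ) ^ (Nat.card G).factorization p =
          (p : ℂ) ^ blockDefect p (f k).1 * (p : ℂ) ^ BlkC.nuMin p (f k).1 := by
        rw [← e5, pow_add]
      rw [h4] at h3
      have h5 : (p : ℂ) ^ blockDefect p (f k).1 * (p : ℂ) ^ BlkC.nuMin p (f k).1 ≠ 0 :=
        mul_ne_zero (pow_ne_zero _ hp0) (pow_ne_zero _ hp0)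
      apply mul_left_cancel₀ h5
      linear_combination -h3
    have h3 := congrArg (rd M) h2
    rw [rd_mul (mlr_natCast _) (hχi k j), rd_mul (mlr_natCast _) (mlr_mul (mlr_natCast _)
      (Blk.mlr_centralChar _ _)), rd_mul (mlr_natCast _) (Blk.mlr_centralChar _ _), rd_natCast,
      rd_natCast, rd_natCast] at h3
    exact h3
  have h6 := Matrix.det_mul_column (fun _ : Fin r => (w : kM M))
    (Matrix.of fun k j : Fin r => rd M ((χ k : G → ℂ) (x j)))
  have h7 := Matrix.det_mul_column (fun k : Fin r => (u k : kM M))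
    (Matrix.of fun k j : Fin r => (v j : kM M) * A j (f k))
  have h8 := Matrix.det_mul_row (fun j : Fin r => (v j : kM M))
    (Matrix.of fun k j : Fin r => A j (f k))
  simp only [Matrix.of_apply] at h6 h7 h8
  rw [hmem, mul_zero] at h6
  have h9 : (Matrix.of fun k j : Fin r => (w : kM M) * rd M ((χ k : G → ℂ) (x j))) =
      Matrix.of fun k j : Fin r => (u k : kM M) * ((v j : kM M) * A j (f k)) := by
    ext k j
    exact hkey k j
  rw [h9, h7, h8] at h6
  exact mul_ne_zero (Finset.prod_ne_zero_iff.mpr (fun k _ => hu k))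
    (mul_ne_zero (Finset.prod_ne_zero_iff.mpr (fun j _ => hv j)) hfd) h6

end final

end Cfsg.Agent.H79
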