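import Mathlib
import Cfsg.Agent.H79.Basic
import Cfsg.Agent.H75.Tools

/-!
# Products of two conjugacy classes
-/

set_option autoImplicit false

open scoped ComplexConjugate

namespace Cfsg.Agent.H79

open Cfsg

section

variable {G : Type*} [Group G] [Finite G]

omit [Finite G] in
/-- If all products of conjugates of `x` and `y` are conjugate to `x y` then
`χ 1 χ(xy) = χ x χ y`. -/
theorem mul_eq_of_classProd [Fintype G] (χ : IrrCharacter G) (x y : G)
    (h : ∀ a b : G, IsConj (x * y) (a * x * a⁻¹ * (b * y * b⁻¹))) :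
    (χ : G → ℂ) 1 * (χ : G → ℂ) (x * y) = (χ : G → ℂ) x * (χ : G → ℂ) y := by
  have h1 := sum_conj_mul χ x y
  have h2 : ∀ a : G, (χ : G → ℂ) (a * x * a⁻¹ * y) = (χ : G → ℂ) (x * y) := by
    intro a
    have := h a 1
    simp only [one_mul, inv_one, mul_one] at this
    exact (CharBase.classFun_eq_of_isConj (CharBase.irr_isClassFunction χ) this).symm
  rw [Finset.sum_congr rfl (fun a _ => h2 a), Finset.sum_const, Finset.card_univ, nsmul_eq_mul,
    Nat.card_eq_fintype_card] at h1
  have h3 : (Fintype.card G : ℂ) ≠ 0 := by exact_mod_cast Fintype.card_ne_zero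
  have h4 := irr_one_ne_zero χ
  field_simp at h1
  linear_combination h1

/-- Elements with the same product value for all irreducible characters. -/
theorem classProd_of_values (x y : G)
    (h : ∀ (a b : G) (χ : IrrCharacter G), (χ : G → ℂ) (a * x * a⁻¹ * (b * y * b⁻¹)) =
      (χ : G → ℂ) (x * y)) (z : G) :
    IsConj (x * y) z ↔ ∃ a b : G, z = a * x * a⁻¹ * (b * y * b⁻¹) := by
  constructor
  · intro hz
    obtain ⟨d, rfl⟩ := isConj_iff.mp hz
    exact ⟨d, d, by group⟩
  · rintro ⟨a, b, rfl⟩
    exact CharBase.isConj_of_irr_eq (fun χ => (h a b χ).symm)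

end

end Cfsg.Agent.H79
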