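import Cfsg.Agent.H79.HksQuot
import Cfsg.Agent.H4.Height0
import Cfsg.Agent.BlkInd.ThirdMain
import Mathlib.Algebra.BigOperators.Option

/-!
# The Héthelyi–Külshammer–Sambale bound for the principal block, star shaped Cartan matrices
(owner: helper79)
-/

set_option autoImplicit false
set_option linter.unusedSectionVars false
set_option linter.style.haveILetI false

universe u v

namespace Cfsg.Agent.H79.Hks

open scoped ComplexConjugate
open Cfsg Cfsg.Agent.Blk Cfsg.Agent.CharBase Cfsg.Agent.BlkC Cfsg.Agent.BlkInd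

section comb

/-- a nonconstant function on `X ∪ {none}` separates at least `2 |X|` ordered pairs -/
theorem card_pairs_ge {I : Type*} [DecidableEq I] (X : Finset I) (w : Option I → ℂ)
    (h0 : w none = 0) {i : I} (hi : i ∈ X) (hw : w (some i) ≠ 0) :
    2 * X.card ≤ (((Finset.insertNone X) ×ˢ (Finset.insertNone X)).filter
      (fun q => w q.1 ≠ w q.2)).card := by
  classical
  obtain ⟨r, hr⟩ : ∃ r : Option I → Option I, ∀ v, r v = if w v ≠ 0 then none else some i :=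
    ⟨_, fun _ => rfl⟩
  obtain ⟨V, hV⟩ : ∃ V, V = Finset.insertNone X := ⟨_, rfl⟩
  have hVc : V.card = X.card + 1 := by rw [hV, Finset.card_insertNone]
  have hrV : ∀ v, r v ∈ V := by
    intro v
    rw [hr, hV]
    split_ifs
    · exact Finset.none_mem_insertNone
    · exact Finset.some_mem_insertNone.2 hi
  have hrw : ∀ v, w v ≠ w (r v) := by
    intro v
    rw [hr]
    split_ifs with h
    · rw [h0]; exact h
    · rw [not_not] at h
      rw [h]; exact hw.symm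
  obtain ⟨A, hA⟩ : ∃ A, A = V.image (fun v => (v, r v)) := ⟨_, rfl⟩
  obtain ⟨A', hA'⟩ : ∃ A', A' = V.image (fun v => (r v, v)) := ⟨_, rfl⟩
  have hAc : A.card = X.card + 1 := by
    rw [hA, Finset.card_image_of_injective _ (fun a b h => (Prod.mk.inj h).1), hVc]
  have hAc' : A'.card = X.card + 1 := by
    rw [hA', Finset.card_image_of_injective _ (fun a b h => (Prod.mk.inj h).2), hVc]
  have hint : A ∩ A' ⊆ {(none, some i), (some i, none)} := by
    intro q hq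
    rw [Finset.mem_inter, hA, hA', Finset.mem_image, Finset.mem_image] at hq
    obtain ⟨⟨a, -, ha⟩, ⟨b, -, hb⟩⟩ := hq
    rw [Finset.mem_insert, Finset.mem_singleton]
    have h1 : q.1 = a := by rw [← ha]
    have h2 : q.2 = r a := by rw [← ha]
    have h3 : q.1 = r b := by rw [← hb]
    have h4 : q.2 = b := by rw [← hb]
    have h5 : r a = b := by rw [← h2, h4]
    have h6 : r b = a := by rw [← h3, h1]
    have h7 : w a ≠ w b := by rw [← h5]; exact hrw a
    rw [hr] at h5 h6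
    by_cases hwa : w a ≠ 0
    · rw [if_pos hwa] at h5
      right
      rw [← h5, h0, if_neg (by simp)] at h6
      rw [Prod.ext_iff, h1, h4, ← h5, ← h6]
      exact ⟨rfl, rfl⟩
    · rw [if_neg hwa] at h5
      left
      have hwb : w b ≠ 0 := by rw [← h5]; exact hw
      rw [if_pos hwb] at h6
      rw [Prod.ext_iff, h1, h4, ← h5, ← h6]
      exact ⟨rfl, rfl⟩
  have hintc : (A ∩ A').card ≤ 2 := (Finset.card_le_card hint).trans Finset.card_le_two
  have hsub : A ∪ A' ⊆ (V ×ˢ V).filter (fun q => w q.1 ≠ w q.2) := by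
    intro q hq
    rw [Finset.mem_filter, Finset.mem_product]
    rcases Finset.mem_union.1 hq with h | h
    · rw [hA, Finset.mem_image] at h
      obtain ⟨a, ha, rfl⟩ := h
      exact ⟨⟨ha, hrV a⟩, hrw a⟩
    · rw [hA', Finset.mem_image] at h
      obtain ⟨a, ha, rfl⟩ := h
      exact ⟨⟨hrV a, ha⟩, (hrw a).symm⟩
  have h1 := Finset.card_union_add_card_inter A A'
  have h2 := Finset.card_le_card hsub
  rw [← hV]
  omega

/-- the quadratic form of the complete graph on a star shaped Gram matrix -/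
theorem sum_pairs {I S : Type*} [DecidableEq I] (X : Finset I) (s : Finset S)
    (w : S → Option I → ℂ) (h0 : ∀ ψ, w ψ none = 0) (n m : ℕ)
    (hG : ∀ i ∈ X, ∀ j ∈ X, ∑ ψ ∈ s, w ψ (some i) * conj (w ψ (some j)) =
      (n : ℂ) * ((if i = j then 1 else 0) + m)) :
    ∑ ψ ∈ s, ∑ q ∈ (Finset.insertNone X) ×ˢ (Finset.insertNone X),
      (w ψ q.1 - w ψ q.2) * conj (w ψ q.1 - w ψ q.2) =
      (2 * n * X.card * (X.card + m) : ℕ) := by
  classical
  obtain ⟨V, hV⟩ : ∃ V, V = Finset.insertNone X := ⟨_, rfl⟩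
  have hVc : (V.card : ℂ) = X.card + 1 := by rw [hV, Finset.card_insertNone]; push_cast; ring
  rw [← hV]
  obtain ⟨Γ, hΓ⟩ : ∃ Γ : Option I → Option I → ℂ, ∀ a b, Γ a b = ∑ ψ ∈ s, w ψ a * conj (w ψ b) :=
    ⟨_, fun _ _ => rfl⟩
  have hΓ0 : ∀ b, Γ none b = 0 := fun b => by rw [hΓ]; simp [h0]
  have hΓ0' : ∀ b, Γ b none = 0 := fun b => by rw [hΓ]; simp [h0]
  have hsumV : ∀ F : Option I → ℂ, ∑ a ∈ V, F a = F none + ∑ i ∈ X, F (some i) := by
    intro F
    rw [hV, Finset.sum_insertNone]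
  have h1 : ∑ ψ ∈ s, ∑ q ∈ V ×ˢ V, (w ψ q.1 - w ψ q.2) * conj (w ψ q.1 - w ψ q.2) =
      ∑ a ∈ V, ∑ b ∈ V, (Γ a a + Γ b b - Γ a b - Γ b a) := by
    rw [Finset.sum_comm, Finset.sum_product]
    refine Finset.sum_congr rfl fun a _ => Finset.sum_congr rfl fun b _ => ?_
    rw [hΓ, hΓ, hΓ, hΓ, ← Finset.sum_add_distrib, ← Finset.sum_sub_distrib,
      ← Finset.sum_sub_distrib]
    refine Finset.sum_congr rfl fun ψ _ => ?_
    rw [map_sub]
    ring
  have hT : ∑ a ∈ V, Γ a a = (n : ℂ) * X.card * (1 + m) := by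
    rw [hsumV, hΓ0, zero_add]
    have h2 : ∀ i ∈ X, Γ (some i) (some i) = (n : ℂ) * (1 + m) := by
      intro i hi
      rw [hΓ, hG i hi i hi, if_pos rfl]
    rw [Finset.sum_congr rfl h2, Finset.sum_const, nsmul_eq_mul]
    ring
  have hA : ∑ a ∈ V, ∑ b ∈ V, Γ a b = (n : ℂ) * (X.card + m * X.card * X.card) := by
    rw [hsumV]
    have h2 : ∑ b ∈ V, Γ none b = 0 := Finset.sum_eq_zero fun b _ => hΓ0 b
    have h3 : ∀ i ∈ X, ∑ b ∈ V, Γ (some i) b = (n : ℂ) * (1 + m * X.card) := by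
      intro i hi
      rw [hsumV, hΓ0', zero_add, Finset.sum_congr rfl fun j hj => (hΓ (some i) (some j)).trans
        (hG i hi j hj), ← Finset.mul_sum, Finset.sum_add_distrib, Finset.sum_ite_eq, if_pos hi,
        Finset.sum_const, nsmul_eq_mul]
      ring
    rw [h2, zero_add, Finset.sum_congr rfl h3, Finset.sum_const, nsmul_eq_mul]
    ring
  rw [h1]
  have h4 : ∑ a ∈ V, ∑ b ∈ V, (Γ a a + Γ b b - Γ a b - Γ b a) =
      (V.card : ℂ) * ∑ a ∈ V, Γ a a + (V.card : ℂ) * ∑ a ∈ V, Γ a a -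
        ∑ a ∈ V, ∑ b ∈ V, Γ a b - ∑ a ∈ V, ∑ b ∈ V, Γ a b := by
    simp only [Finset.sum_sub_distrib, Finset.sum_add_distrib, Finset.sum_const, nsmul_eq_mul]
    rw [Finset.sum_comm (s := V) (t := V) (f := fun a b => Γ b a), Finset.mul_sum]
  rw [h4, hT, hA, hVc]
  push_cast
  ring

end comb

section bound

variable {p : ℕ} [hp : Fact p.Prime] {M : Ideal AlgInt} [hMp : M.IsPrime]

/-- A star shaped integral description of the principal block on `p`-regular elements. -/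
structure Star (p : ℕ) (M : Ideal AlgInt) {K : Type u} [Group K] [Fintype K]
    (X : Finset (IrrCharacter K)) (ε : IrrCharacter K → ℤ) (m : ℕ) : Prop where
  sgn : ∀ χ ∈ X, ε χ = 1 ∨ ε χ = -1
  span : ∀ ψ ∈ principalBlock M K, ∃ z : IrrCharacter K → ℤ, ∀ y : K, ¬ p ∣ orderOf y →
    (ψ : K → ℂ) y = ∑ χ ∈ X, (z χ : ℂ) * (χ : K → ℂ) y
  indep : ∀ c : IrrCharacter K → ℂ, (∀ y : K, ¬ p ∣ orderOf y → ∑ χ ∈ X, c χ * (χ : K → ℂ) y = 0) →
    ∀ χ ∈ X, c χ = 0
  ker : ∀ s t : K, ¬ p ∣ orderOf s → ¬ p ∣ orderOf t → blockKernel (principalBlock M K) s t =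
    ∑ χ ∈ X, (χ : K → ℂ) s * conj ((χ : K → ℂ) t) +
      (m : ℂ) * ((∑ χ ∈ X, (ε χ : ℂ) * (χ : K → ℂ) s) *
        conj (∑ χ ∈ X, (ε χ : ℂ) * (χ : K → ℂ) t))

variable {G : Type u} [Group G] [Fintype G]

theorem bound (hM : IsPModular p M) {x : G} (hx : ∃ k : ℕ, orderOf x = p ^ k) {C : Subgroup G}
    [Fintype C] (hC : C = Subgroup.centralizer ({x} : Set G)) {x' : C} (hx' : (x' : G) = x)
    [(Subgroup.zpowers x').Normal] [Fintype (C ⧸ Subgroup.zpowers x')]
    {X : Finset (IrrCharacter (C ⧸ Subgroup.zpowers x'))}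
    {ε : IrrCharacter (C ⧸ Subgroup.zpowers x') → ℤ} {m : ℕ} (hS : Star p M X ε m) :
    Nat.card {χ : IrrCharacter G // χ ∈ principalBlock M G ∧
      blockHeight p (principalBlock M G) (χ : G → ℂ) = 0} ≤ orderOf x * (X.card + m) := by
  classical
  haveI : Fintype (IrrCharacter (C ⧸ Subgroup.zpowers x')) := Fintype.ofFinite _
  obtain ⟨B, hBdef⟩ : ∃ B, B = principalBlock M G := ⟨_, rfl⟩
  obtain ⟨b, hbdef⟩ : ∃ b, b = principalBlock M C := ⟨_, rfl⟩
  have hB : IsPBlock M B := by rw [hBdef]; exact isPBlock_principalBlock M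
  have hb : IsPBlock M b := by rw [hbdef]; exact isPBlock_principalBlock M
  have hxc : x' ∈ Subgroup.center C := by
    rw [Subgroup.mem_center_iff]
    intro c
    apply Subtype.ext
    have h1 := hC.le c.2
    rw [Subgroup.mem_centralizer_singleton_iff] at h1
    rw [Subgroup.coe_mul, Subgroup.coe_mul, hx']
    exact h1
  have hZc : Subgroup.zpowers x' ≤ Subgroup.center C := by
    rw [Subgroup.zpowers_le]; exact hxc
  have hox : orderOf x' = orderOf x := by rw [← hx', Subgroup.orderOf_coe]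
  have hxp' : ∃ k : ℕ, orderOf x' = p ^ k := by rw [hox]; exact hx
  have hZp : IsPGroup p (Subgroup.zpowers x') := by
    obtain ⟨k, hk⟩ := hxp'
    exact IsPGroup.of_card (n := k) (by rw [Nat.card_zpowers, hk])
  have hind : IsInducedBlock M C b B := by
    have h1 : ∃ B', IsInducedBlock M C b B' := exists_induced hM hx hC hb
    obtain ⟨B', hB'⟩ := h1
    rw [hBdef, hbdef]
    rw [hbdef] at hB'
    exact (third_main hM (principalBlock M C) ⟨B', hB'⟩).2 rfl
  -- integral coordinates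
  have hco : ∀ η ∈ b, ∃ a : IrrCharacter (C ⧸ Subgroup.zpowers x') → ℤ, ∀ c : C,
      ¬ p ∣ orderOf c → (η : C → ℂ) c = ∑ χ ∈ X, (a χ : ℂ) *
        (χ : C ⧸ Subgroup.zpowers x' → ℂ) (QuotientGroup.mk c) := by
    intro η hη
    rw [hbdef] at hη
    obtain ⟨n, hn0, hn⟩ := exists_int_infl_principal hM hZp hZc hη
    choose z hz using fun (ψ : IrrCharacter (C ⧸ Subgroup.zpowers x'))
      (hψ : ψ ∈ principalBlock M (C ⧸ Subgroup.zpowers x')) => hS.span ψ hψ
    refine ⟨fun χ => ∑ ψ : IrrCharacter (C ⧸ Subgroup.zpowers x'),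
      if h : ψ ∈ principalBlock M (C ⧸ Subgroup.zpowers x') then n ψ * z ψ h χ else 0,
      fun c hc => ?_⟩
    rw [hn c hc]
    have h1 : ∀ ψ : IrrCharacter (C ⧸ Subgroup.zpowers x'), (n ψ : ℂ) *
        (ψ : C ⧸ Subgroup.zpowers x' → ℂ) (QuotientGroup.mk c) = ∑ χ ∈ X,
        (((if h : ψ ∈ principalBlock M (C ⧸ Subgroup.zpowers x') then n ψ * z ψ h χ else 0 : ℤ)) :
          ℂ) * (χ : C ⧸ Subgroup.zpowers x' → ℂ) (QuotientGroup.mk c) := by
      intro ψ
      by_cases h : ψ ∈ principalBlock M (C ⧸ Subgroup.zpowers x')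
      · rw [hz ψ h _ (regular_mk hc), Finset.mul_sum]
        refine Finset.sum_congr rfl fun χ _ => ?_
        rw [dif_pos h]
        push_cast
        ring
      · rw [hn0 ψ h]
        simp [h]
    rw [Finset.sum_congr rfl fun ψ _ => h1 ψ, Finset.sum_comm]
    refine Finset.sum_congr rfl fun χ _ => ?_
    rw [← Finset.sum_mul]
    push_cast
    rfl
  choose a ha using hco
  obtain ⟨a', ha'⟩ : ∃ a' : IrrCharacter C → IrrCharacter (C ⧸ Subgroup.zpowers x') → ℤ,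
      ∀ η (h : η ∈ b), a' η = a η h :=
    ⟨fun η => if h : η ∈ b then a η h else 0, fun η h => dif_pos h⟩
  obtain ⟨d, hd⟩ : ∃ d : IrrCharacter G → IrrCharacter (C ⧸ Subgroup.zpowers x') → ℂ,
      ∀ ψ χ, d ψ χ = ∑ η ∈ Bfin b, dco x (ψ : G → ℂ) η * (a' η χ : ℂ) := ⟨_, fun _ _ => rfl⟩
  have hdp : ∀ (ψ : IrrCharacter G) (s : C), ¬ p ∣ orderOf s → dpart p x b (ψ : G → ℂ) s =
      ∑ χ ∈ X, d ψ χ * (χ : C ⧸ Subgroup.zpowers x' → ℂ) (QuotientGroup.mk s) := by
    intro ψ s hs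
    rw [dpart_eq_sum x b (ψ : G → ℂ) hs]
    have h1 : ∀ η ∈ Bfin b, dco x (ψ : G → ℂ) η * (η : C → ℂ) s = ∑ χ ∈ X,
        dco x (ψ : G → ℂ) η * (a' η χ : ℂ) *
          (χ : C ⧸ Subgroup.zpowers x' → ℂ) (QuotientGroup.mk s) := by
      intro η hη
      rw [ha η (mem_Bfin.1 hη) s hs, Finset.mul_sum, ha' η (mem_Bfin.1 hη)]
      exact Finset.sum_congr rfl fun χ _ => by ring
    rw [Finset.sum_congr rfl h1, Finset.sum_comm]
    refine Finset.sum_congr rfl fun χ _ => ?_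
    rw [hd, Finset.sum_mul]
  have hdring : ∀ ψ χ, d ψ χ ∈ cycRing (orderOf x) := by
    intro ψ χ
    rw [hd]
    refine Subring.sum_mem _ fun η _ => Subring.mul_mem _ ?_ (intCast_mem _ _)
    obtain ⟨ω, hω, h⟩ := exists_dco_eq hC ψ η
    rw [h]
    exact Subring.mul_mem _ (Subring.subset_closure hω) (natCast_mem _ _)
  -- Gram matrix
  obtain ⟨Γ, hΓ⟩ : ∃ Γ : IrrCharacter (C ⧸ Subgroup.zpowers x') →
      IrrCharacter (C ⧸ Subgroup.zpowers x') → ℂ, ∀ χ χ', Γ χ χ' =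
        ∑ ψ ∈ Bfin B, d ψ χ * conj (d ψ χ') := ⟨_, fun _ _ => rfl⟩
  obtain ⟨N, hN⟩ : ∃ N : IrrCharacter (C ⧸ Subgroup.zpowers x') →
      IrrCharacter (C ⧸ Subgroup.zpowers x') → ℂ, ∀ χ χ', N χ χ' =
        (orderOf x : ℂ) * ((if χ = χ' then 1 else 0) + (m : ℂ) * ((ε χ : ℂ) * (ε χ' : ℂ))) :=
    ⟨_, fun _ _ => rfl⟩
  have hkk : ∀ s t : C, ¬ p ∣ orderOf s → ¬ p ∣ orderOf t →
      ∑ χ ∈ X, (∑ χ' ∈ X, (Γ χ χ' - N χ χ') *
        conj ((χ' : C ⧸ Subgroup.zpowers x' → ℂ) (QuotientGroup.mk t))) *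
          (χ : C ⧸ Subgroup.zpowers x' → ℂ) (QuotientGroup.mk s) = 0 := by
    intro s t hs ht
    have h1 := sum_dpart_mul_conj_block hM hx hC hind hs ht
    rw [hbdef, kernel_quot hM hxp' hxc hs ht, hS.ker _ _ (regular_mk hs) (regular_mk ht), hox] at h1
    rw [← hbdef] at h1
    have h2 : ∑ ψ ∈ Bfin B, dpart p x b (ψ : G → ℂ) s * conj (dpart p x b (ψ : G → ℂ) t) =
        ∑ χ ∈ X, (∑ χ' ∈ X, Γ χ χ' *
          conj ((χ' : C ⧸ Subgroup.zpowers x' → ℂ) (QuotientGroup.mk t))) *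
            (χ : C ⧸ Subgroup.zpowers x' → ℂ) (QuotientGroup.mk s) := by
      have h3 : ∀ ψ ∈ Bfin B, dpart p x b (ψ : G → ℂ) s * conj (dpart p x b (ψ : G → ℂ) t) =
          ∑ χ ∈ X, ∑ χ' ∈ X, (d ψ χ * conj (d ψ χ')) *
            conj ((χ' : C ⧸ Subgroup.zpowers x' → ℂ) (QuotientGroup.mk t)) *
            (χ : C ⧸ Subgroup.zpowers x' → ℂ) (QuotientGroup.mk s) := by
        intro ψ _
        rw [hdp ψ s hs, hdp ψ t ht, map_sum, Finset.sum_mul_sum]
        refine Finset.sum_congr rfl fun χ _ => Finset.sum_congr rfl fun χ' _ => ?_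
        rw [map_mul]
        ring
      rw [Finset.sum_congr rfl h3, Finset.sum_comm]
      refine Finset.sum_congr rfl fun χ _ => ?_
      rw [Finset.sum_comm, Finset.sum_mul]
      refine Finset.sum_congr rfl fun χ' _ => ?_
      rw [hΓ, Finset.sum_mul, Finset.sum_mul]
    have h4 : ∑ χ ∈ X, (∑ χ' ∈ X, N χ χ' *
          conj ((χ' : C ⧸ Subgroup.zpowers x' → ℂ) (QuotientGroup.mk t))) *
            (χ : C ⧸ Subgroup.zpowers x' → ℂ) (QuotientGroup.mk s) =
        (orderOf x : ℂ) * (∑ χ ∈ X, (χ : C ⧸ Subgroup.zpowers x' → ℂ) (QuotientGroup.mk s) *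
          conj ((χ : C ⧸ Subgroup.zpowers x' → ℂ) (QuotientGroup.mk t)) +
      (m : ℂ) * ((∑ χ ∈ X, (ε χ : ℂ) * (χ : C ⧸ Subgroup.zpowers x' → ℂ) (QuotientGroup.mk s)) *
        conj (∑ χ ∈ X, (ε χ : ℂ) * (χ : C ⧸ Subgroup.zpowers x' → ℂ) (QuotientGroup.mk t)))) := by
      rw [map_sum, Finset.sum_mul_sum, mul_add, Finset.mul_sum, Finset.mul_sum, Finset.mul_sum,
        ← Finset.sum_add_distrib]
      refine Finset.sum_congr rfl fun χ hχ => ?_
      have h5 : ∑ χ' ∈ X, (if χ = χ' then (1 : ℂ) else 0) *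
          conj ((χ' : C ⧸ Subgroup.zpowers x' → ℂ) (QuotientGroup.mk t)) =
          conj ((χ : C ⧸ Subgroup.zpowers x' → ℂ) (QuotientGroup.mk t)) := by
        rw [Finset.sum_eq_single χ]
        · rw [if_pos rfl, one_mul]
        · intro χ' _ hne
          rw [if_neg (Ne.symm hne), zero_mul]
        · intro h; exact absurd hχ h
      rw [← h5]
      simp only [Finset.mul_sum, Finset.sum_mul]
      rw [← Finset.sum_add_distrib]
      refine Finset.sum_congr rfl fun χ' _ => ?_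
      rw [hN, map_mul]
      have h6 : conj ((ε χ' : ℤ) : ℂ) = (ε χ' : ℂ) := map_intCast _ _
      rw [h6]
      ring
    rw [h2, ← h4] at h1
    rw [← sub_eq_zero, ← Finset.sum_sub_distrib] at h1
    rw [← h1]
    refine Finset.sum_congr rfl fun χ _ => ?_
    rw [← sub_mul, ← Finset.sum_sub_distrib]
    congr 1
    exact Finset.sum_congr rfl fun χ' _ => by ring
  have hGram : ∀ χ ∈ X, ∀ χ' ∈ X, Γ χ χ' = N χ χ' := by
    intro χ hχ χ' hχ'
    have h1 : ∀ t : C, ¬ p ∣ orderOf t → ∑ χ' ∈ X, (Γ χ χ' - N χ χ') *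
        conj ((χ' : C ⧸ Subgroup.zpowers x' → ℂ) (QuotientGroup.mk t)) = 0 := by
      intro t ht
      refine hS.indep (fun χ => ∑ χ' ∈ X, (Γ χ χ' - N χ χ') *
        conj ((χ' : C ⧸ Subgroup.zpowers x' → ℂ) (QuotientGroup.mk t))) ?_ χ hχ
      intro y hy
      obtain ⟨s, hs, rfl⟩ := exists_regular_lift hy
      exact hkk s t hs ht
    have h2 := hS.indep (fun χ' => conj (Γ χ χ' - N χ χ')) (by
      intro y hy
      obtain ⟨t, ht, rfl⟩ := exists_regular_lift hy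
      have h3 := congrArg conj (h1 t ht)
      rw [map_sum, map_zero] at h3
      rw [← h3]
      refine Finset.sum_congr rfl fun χ' _ => ?_
      rw [map_mul, Complex.conj_conj]) χ' hχ'
    have h3 := congrArg conj h2
    rw [Complex.conj_conj, map_zero] at h3
    exact sub_eq_zero.1 h3
  -- characters of height zero
  obtain ⟨S, hSdef⟩ : ∃ S : Finset (IrrCharacter G), S = (Bfin B).filter
      (fun ψ : IrrCharacter G => blockHeight p B (ψ : G → ℂ) = 0) := ⟨_, rfl⟩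
  have hne : ∀ ψ ∈ S, ∃ χ ∈ X, d ψ χ ≠ 0 := by
    intro ψ hψ
    rw [hSdef, Finset.mem_filter, mem_Bfin] at hψ
    by_contra hcon
    push Not at hcon
    have h1 := H4.sc_ne_zero_all hM hx hC hind hψ.1 hψ.2 hψ.1 hψ.2
    apply h1
    unfold sc
    have h2 : ∀ s : C, dpart p x b (ψ : G → ℂ) s = 0 := by
      intro s
      by_cases hs : p ∣ orderOf s
      · exact dpart_of_sing _ hs
      · rw [hdp ψ s hs]
        exact Finset.sum_eq_zero fun χ hχ => by rw [hcon χ hχ, zero_mul]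
    rw [Finset.sum_eq_zero fun s _ => by rw [h2 s, zero_mul], mul_zero]
  have hcard : Nat.card {χ : IrrCharacter G // χ ∈ principalBlock M G ∧
      blockHeight p (principalBlock M G) (χ : G → ℂ) = 0} = S.card := by
    rw [hSdef, hBdef]
    exact H4.natCard_B0 p
  rw [hcard]
  rcases Finset.eq_empty_or_nonempty S with hSe | ⟨ψ₀, hψ₀⟩
  · rw [hSe, Finset.card_empty]; exact Nat.zero_le _
  obtain ⟨χ₀, hχ₀, -⟩ := hne ψ₀ hψ₀
  -- the vectors
  obtain ⟨w, hw0, hw1⟩ : ∃ w : IrrCharacter G → Option (IrrCharacter (C ⧸ Subgroup.zpowers x')) → ℂ,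
      (∀ ψ, w ψ none = 0) ∧ ∀ ψ χ, w ψ (some χ) = (ε χ : ℂ) * d ψ χ :=
    ⟨fun ψ o => o.elim 0 (fun χ => (ε χ : ℂ) * d ψ χ), fun _ => rfl, fun _ _ => rfl⟩
  have hε : ∀ χ ∈ X, (ε χ : ℂ) * (ε χ : ℂ) = 1 := by
    intro χ hχ
    rcases hS.sgn χ hχ with h | h <;> rw [h] <;> norm_num
  have hwring : ∀ ψ o, w ψ o ∈ cycRing (orderOf x) := by
    intro ψ o
    cases o with
    | none => rw [hw0]; exact Subring.zero_mem _
    | some χ => rw [hw1]; exact Subring.mul_mem _ (intCast_mem _ _) (hdring ψ χ)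
  have hsum := sum_pairs X (Bfin B) w hw0 (orderOf x) m (by
    intro χ hχ χ' hχ'
    have h1 := hGram χ hχ χ' hχ'
    rw [hΓ, hN] at h1
    have h2 : ∑ ψ ∈ Bfin B, w ψ (some χ) * conj (w ψ (some χ')) =
        (ε χ : ℂ) * (ε χ' : ℂ) * ∑ ψ ∈ Bfin B, d ψ χ * conj (d ψ χ') := by
      rw [Finset.mul_sum]
      refine Finset.sum_congr rfl fun ψ _ => ?_
      have h6 : conj ((ε χ' : ℤ) : ℂ) = (ε χ' : ℂ) := map_intCast _ _
      rw [hw1, hw1, map_mul, h6]
      ring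
    rw [h2, h1]
    have e1 := hε χ hχ
    have e2 := hε χ' hχ'
    by_cases hcc : χ = χ'
    · subst hcc
      rw [if_pos rfl]
      linear_combination (orderOf x : ℂ) * (1 + (m : ℂ) * ((ε χ : ℂ) * (ε χ : ℂ) + 1)) * e1
    · rw [if_neg hcc]
      linear_combination (orderOf x : ℂ) * (m : ℂ) * ((ε χ' : ℂ) * (ε χ' : ℂ)) * e1 +
        (orderOf x : ℂ) * (m : ℂ) * e2)
  -- apply the inequality between arithmetic and geometric means
  obtain ⟨V, hV⟩ : ∃ V, V = (Finset.insertNone X) ×ˢ (Finset.insertNone X) := ⟨_, rfl⟩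
  rw [← hV] at hsum
  have hsum2 : ∑ i ∈ ((Bfin B) ×ˢ V).filter (fun i => w i.1 i.2.1 ≠ w i.1 i.2.2),
      (w i.1 i.2.1 - w i.1 i.2.2) * conj (w i.1 i.2.1 - w i.1 i.2.2) =
      ((2 * orderOf x * X.card * (X.card + m) : ℕ) : ℤ) := by
    rw [Finset.sum_filter, Finset.sum_product]
    have h1 : ∀ ψ ∈ Bfin B, ∀ q ∈ V, (if w ψ q.1 ≠ w ψ q.2 then
        (w ψ q.1 - w ψ q.2) * conj (w ψ q.1 - w ψ q.2) else 0) =
        (w ψ q.1 - w ψ q.2) * conj (w ψ q.1 - w ψ q.2) := by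
      intro ψ _ q _
      split_ifs with h
      · rfl
      · rw [not_not] at h
        rw [h]; simp
    rw [Finset.sum_congr rfl fun ψ hψ => Finset.sum_congr rfl fun q hq => h1 ψ hψ q hq, hsum]
    norm_cast
  have hle := card_le_of_sum_mul_conj (orderOf_pos x).ne' _ _ (fun i _ =>
    Subring.sub_mem _ (hwring i.1 i.2.1) (hwring i.1 i.2.2)) (fun i hi => by
      rw [Finset.mem_filter] at hi
      exact sub_ne_zero.2 hi.2) hsum2
  have hge : 2 * X.card * S.card ≤ (((Bfin B) ×ˢ V).filter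
      (fun i => w i.1 i.2.1 ≠ w i.1 i.2.2)).card := by
    have h1 : ∑ ψ ∈ S, 2 * X.card ≤ ∑ ψ ∈ Bfin B, (V.filter (fun q => w ψ q.1 ≠ w ψ q.2)).card := by
      refine le_trans (Finset.sum_le_sum fun ψ hψ => ?_) (Finset.sum_le_sum_of_subset
        (by rw [hSdef]; exact Finset.filter_subset _ _))
      obtain ⟨χ, hχ, hne'⟩ := hne ψ hψ
      rw [hV]
      refine card_pairs_ge X (w ψ) (hw0 ψ) hχ ?_
      rw [hw1]
      refine mul_ne_zero ?_ hne'
      intro h
      have := hε χ hχ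
      rw [h, zero_mul] at this
      exact zero_ne_one this
    rw [Finset.sum_const, smul_eq_mul, mul_comm] at h1
    refine le_trans h1 (le_of_eq ?_)
    rw [Finset.card_filter, Finset.sum_product]
    refine Finset.sum_congr rfl fun ψ _ => ?_
    rw [Finset.card_filter]
  have hfin : 2 * X.card * S.card ≤ 2 * orderOf x * X.card * (X.card + m) := by
    have h1 := hge.trans (by exact_mod_cast hle)
    exact h1
  have hXpos : 0 < X.card := Finset.card_pos.2 ⟨χ₀, hχ₀⟩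
  have h2 : (2 * X.card) * S.card ≤ (2 * X.card) * (orderOf x * (X.card + m)) := by
    calc (2 * X.card) * S.card ≤ 2 * orderOf x * X.card * (X.card + m) := hfin
      _ = _ := by ring
  exact Nat.le_of_mul_le_mul_left h2 (by omega)

end bound

end Cfsg.Agent.H79.Hks
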