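import Cfsg.Agent.CycG.Prin
import Cfsg.Agent.CycG.Concl
import Cfsg.Agent.CycG.Values
import Cfsg.Agent.Blk.Gal
import Cfsg.Agent.H75.PConj

/-!
# Blocks with defect group of order `p` and field automorphisms
-/

set_option autoImplicit false
set_option linter.unusedSectionVars false
set_option linter.style.haveILetI false
set_option linter.unusedVariables false

namespace Cfsg.Agent.H79

open Cfsg Cfsg.Agent.CharBase Cfsg.Agent.Blk Cfsg.Agent.Char Cfsg.Agent.BlkC Cfsg.Agent.CycG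

universe u

section

variable {G : Type u} [Group G] [Fintype G] {p : ℕ} [hp : Fact p.Prime] {M : Ideal AlgInt}

/-- the data of the cyclic theory for a block with defect group of order `p` -/
theorem exists_data (hM : IsPModular p M) {B : Set (IrrCharacter G)} (hB : IsPBlock M B)
    {D : Subgroup G} (hBD : IsDefectGroup p M B D) (hc : Nat.card D = p) :
    ∃ (T : Subgroup G) (f : Set (IrrCharacter (Subgroup.centralizer (D : Set G))))
      (χ1 : IrrCharacter (Subgroup.centralizer (D : Set G))),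
      CycDat p M D D (Subgroup.centralizer (D : Set G)) T f B χ1 ∧
      (∀ z : Subgroup.centralizer (D : Set G), (z : G) ∈ D →
        (χ1 : Subgroup.centralizer (D : Set G) → ℂ) z =
        (χ1 : Subgroup.centralizer (D : Set G) → ℂ) 1) ∧ Nat.card f = p ∧
      (Subgroup.centralizer (D : Set G)).relIndex T ≤ blockRank p B := by
  classical
  haveI := hM.2.1.isPrime
  haveI := charP_kM hM
  have hDC : D ≤ Subgroup.centralizer (D : Set G) := le_centralizer_of_prime hc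
  have hDef := (isDefectGroup_iff hM hB D).1 hBD
  have hbr := hDef.br_ne
  obtain ⟨y, hy⟩ : ∃ y, (br D (Blk.eB M B)).coeff y ≠ 0 := by
    by_contra hcon
    push Not at hcon
    exact hbr (ga_ext fun y => by rw [hcon y]; rfl)
  have hyC : y ∈ Subgroup.centralizer (D : Set G) := by
    by_contra h
    exact hy (trunc_coeff_of_notMem _ h)
  rw [br, trunc_coeff_of_mem _ hyC] at hy
  have hyB : ¬ MemLocalIdeal M (blockCoeff B y) := by
    intro h
    apply hy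
    change rd M (blockCoeff B y) = 0
    exact (rd_eq_zero_iff (mlr_blockCoeff hB y)).2 h
  obtain ⟨b, hb⟩ := BlkInd.exists_block_of_br hM hDef.isPGroup hDC le_rfl
    (centralizer_le_normalizer D) hB hyC hyB
  refine ⟨stab (Subgroup.normalizer (D : Set G)) (EB M (Subgroup.centralizer (D : Set G)) b), b, ?_⟩
  obtain ⟨χ1, d, h1, h2, h3⟩ := s4696_prime hM hc hBD rfl hb
    (T := stab (Subgroup.normalizer (D : Set G)) (EB M (Subgroup.centralizer (D : Set G)) b)) (by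
      intro g
      rw [mem_stab, stabilizesBlock_iff hb.1]
      constructor
      · rintro ⟨h1, h2⟩
        exact ⟨h1, normalizer_le_normalizer_centralizer D h1, h2⟩
      · rintro ⟨h1, -, h2⟩
        exact ⟨h1, h2⟩)
  exact ⟨χ1, d, h1, h2, h3⟩

theorem classInner_irrGal (σ : ℂ ≃+* ℂ) {H : Type u} [Group H] [Fintype H] {φ : H → ℂ}
    (hφ : IsCharacter H φ) (χ : IrrCharacter H) :
    classInner (fun h => σ (φ h)) ((irrGal σ χ : IrrCharacter H) : H → ℂ) =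
      classInner φ (χ : H → ℂ) := by
  classical
  have := Fintype.ofFinite (IrrCharacter H)
  obtain ⟨m, hm, hsum⟩ := exists_mult_of_isCharacter hφ
  have h1 : (fun h => σ (φ h)) = ∑ ξ : IrrCharacter H, m ξ • ((irrGal σ ξ : IrrCharacter H) : H → ℂ) := by
    funext h
    rw [hsum, Finset.sum_apply, Finset.sum_apply, map_sum]
    refine Finset.sum_congr rfl fun ξ _ => ?_
    rw [Pi.smul_apply, Pi.smul_apply, map_nsmul]
    rfl
  rw [h1, classInner_sum_left, hm χ, Finset.sum_eq_single χ]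
  · rw [← Nat.cast_smul_eq_nsmul ℂ, classInner_smul_left, classInner_irr_self, mul_one]
  · intro ξ _ hne
    rw [← Nat.cast_smul_eq_nsmul ℂ, classInner_smul_left,
      classInner_irr_of_ne (fun h => hne (irrGal_injective σ h)), mul_zero]
  · intro h; exact absurd (Finset.mem_univ _) h

theorem mult_irrGal (σ : ℂ ≃+* ℂ) (C : Subgroup G) [Fintype C] (ψ : IrrCharacter G)
    (χ : IrrCharacter C) : mult C (irrGal σ ψ) (irrGal σ χ) = mult C ψ χ := by
  have h1 := mult_spec C (irrGal σ ψ) (irrGal σ χ)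
  have h2 := mult_spec C ψ χ
  have h3 := classInner_irrGal σ (isCharacter_restrict (irr_isCharacter ψ) C) χ
  have h4 : (mult C (irrGal σ ψ) (irrGal σ χ) : ℂ) = mult C ψ χ := by
    rw [← h1, ← h2, ← h3]; rfl
  exact_mod_cast h4

theorem fix_sub {σ : ℂ ≃+* ℂ} (hσ : ∀ ζ : ℂ, ζ ^ (Nat.card G / p ^ (Nat.card G).factorization p) = 1 → σ ζ = ζ)
    (C : Subgroup G) (ζ : ℂ) (hζ : ζ ^ (Nat.card C / p ^ (Nat.card C).factorization p) = 1) :
    σ ζ = ζ := by
  apply hσ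
  have h1 : Nat.card C / p ^ (Nat.card C).factorization p ∣
      Nat.card G / p ^ (Nat.card G).factorization p :=
    Nat.ordCompl_dvd_ordCompl_of_dvd (Subgroup.card_subgroup_dvd_card C) p
  obtain ⟨m, hm⟩ := h1
  rw [hm, pow_mul, hζ, one_pow]

theorem irrGal_symm (σ : ℂ ≃+* ℂ) {H : Type u} [Group H] [Fintype H] (χ : IrrCharacter H) :
    irrGal σ (irrGal σ.symm χ) = χ := by
  apply Subtype.ext
  funext h
  exact σ.apply_symm_apply _

theorem fix_symm {σ : ℂ ≃+* ℂ} {n : ℕ} (hσ : ∀ ζ : ℂ, ζ ^ n = 1 → σ ζ = ζ) (ζ : ℂ)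
    (hζ : ζ ^ n = 1) : σ.symm ζ = ζ := by
  rw [RingEquiv.symm_apply_eq, hσ ζ hζ]

variable {D C T : Subgroup G} {f : Set (IrrCharacter C)} {B : Set (IrrCharacter G)}
  {χ1 : IrrCharacter C}

theorem gal_one (d : CycDat p M D D C T f B χ1) (hM : IsPModular p M) [Fintype C]
    (h1 : ∀ z : C, (z : G) ∈ D → (χ1 : C → ℂ) z = (χ1 : C → ℂ) 1) {σ : ℂ ≃+* ℂ}
    (hσ : ∀ ζ : ℂ, ζ ^ (Nat.card G / p ^ (Nat.card G).factorization p) = 1 → σ ζ = ζ) :
    irrGal σ χ1 = χ1 := by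
  haveI := hM.2.1.isPrime
  have hmem := irrGal_mem hM d.hf (fix_sub hσ C) d.one_mem
  refine eq_of_eq_on_defect hM d.hf d.defect (subgroupOf_le_center d.hC) hmem d.one_mem ?_
  intro z hz
  have hz' := Subgroup.mem_subgroupOf.1 hz
  change σ ((χ1 : C → ℂ) z) = _
  rw [h1 z hz', charDegree_spec, map_natCast]

theorem xv_gal (d : CycDat p M D D C T f B χ1) (hM : IsPModular p M) [Fintype C]
    (h1 : ∀ z : C, (z : G) ∈ D → (χ1 : C → ℂ) z = (χ1 : C → ℂ) 1) {σ : ℂ ≃+* ℂ}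
    (hσ : ∀ ζ : ℂ, ζ ^ (Nat.card G / p ^ (Nat.card G).factorization p) = 1 → σ ζ = ζ)
    (ψ : IrrCharacter G) (χ : IrrCharacter C) :
    CycDat.xv C χ1 (irrGal σ ψ) (irrGal σ χ) = CycDat.xv C χ1 ψ χ := by
  have h2 := gal_one d hM h1 hσ
  have h3 := mult_irrGal σ C ψ χ1
  rw [h2] at h3
  rw [CycDat.xv, CycDat.xv, h3, mult_irrGal]

theorem eq_of_xv {θ : IrrCharacter C → IrrCharacter G} {ε : IrrCharacter G → ℤ} {δ : ℤ}
    [Fintype C] (o : CycOut p T f B χ1 θ ε δ) {ψ ψ' : IrrCharacter G} (hψ : ψ ∈ B) (hψ' : ψ' ∈ B)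
    (hx : ∀ χ ∈ f, χ ≠ χ1 → CycDat.xv C χ1 ψ χ = CycDat.xv C χ1 ψ' χ)
    (hr : ∀ g : G, ¬ p ∣ orderOf g → (ψ : G → ℂ) g = (ψ' : G → ℂ) g) : ψ = ψ' := by
  classical
  apply Subtype.ext
  funext g
  by_cases hg : p ∣ orderOf g
  swap
  · exact hr g hg
  have hev : ∀ F : IrrCharacter G → ℂ, ∑ ξ ∈ Bfin B, ((if ξ = ψ then (1 : ℂ) else 0) -
      (if ξ = ψ' then (1 : ℂ) else 0)) * F ξ = F ψ - F ψ' := by
    intro F
    simp only [sub_mul, ite_mul, zero_mul, one_mul, Finset.sum_sub_distrib]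
    rw [Finset.sum_ite_eq', Finset.sum_ite_eq', if_pos (CycOut.mem_Bfin.2 hψ),
      if_pos (CycOut.mem_Bfin.2 hψ')]
  have h1 := o.sing (fun ξ => (if ξ = ψ then (1 : ℂ) else 0) - (if ξ = ψ' then (1 : ℂ) else 0)) (by
    intro χ hχ h1
    rw [hev (fun ξ => (CycDat.xv C χ1 ξ χ : ℂ)), hx χ hχ h1, sub_self]) g hg
  rw [hev (fun ξ => (ξ : G → ℂ) g)] at h1
  exact sub_eq_zero.1 h1

theorem gal_reg {σ : ℂ ≃+* ℂ}
    (hσ : ∀ ζ : ℂ, ζ ^ (Nat.card G / p ^ (Nat.card G).factorization p) = 1 → σ ζ = ζ)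
    (ψ : IrrCharacter G) {g : G} (hg : ¬ p ∣ orderOf g) :
    ((irrGal σ ψ : IrrCharacter G) : G → ℂ) g = (ψ : G → ℂ) g := by
  apply irrGal_apply_of_regular hσ
  exact H75.orderOf_dvd_gp' (G := G) (p := p) hg

theorem gal_nonexc (d : CycDat p M D D C T f B χ1) (hM : IsPModular p M) [Fintype C]
    (h1 : ∀ z : C, (z : G) ∈ D → (χ1 : C → ℂ) z = (χ1 : C → ℂ) 1)
    {θ : IrrCharacter C → IrrCharacter G} {ε : IrrCharacter G → ℤ} {δ : ℤ}
    (o : CycOut p T f B χ1 θ ε δ) {σ : ℂ ≃+* ℂ}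
    (hσ : ∀ ζ : ℂ, ζ ^ (Nat.card G / p ^ (Nat.card G).factorization p) = 1 → σ ζ = ζ)
    {ψ : IrrCharacter G} (hψ : ψ ∈ B) (hne : ¬ Exc f χ1 θ ψ) : irrGal σ ψ = ψ := by
  haveI := hM.2.1.isPrime
  refine eq_of_xv o (irrGal_mem hM d.hB hσ hψ) hψ ?_ (fun g hg => gal_reg hσ ψ hg)
  intro χ hχ hχ1
  have hs := fix_symm hσ
  have h2 : irrGal σ.symm χ ∈ f := irrGal_mem hM d.hf (fix_sub hs C) hχ
  have h3 : irrGal σ.symm χ ≠ χ1 := by
    intro h
    apply hχ1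
    rw [← irrGal_symm σ χ, h, gal_one d hM h1 hσ]
  rw [← irrGal_symm σ χ, xv_gal d hM h1 hσ, irrGal_symm, o.xv_nonexc hψ hne h2 h3,
    o.xv_nonexc hψ hne hχ hχ1]

theorem cjI_irrGal {t : G} (ht : t ∈ Subgroup.normalizer (C : Set G)) (σ : ℂ ≃+* ℂ)
    [Fintype C] (χ : IrrCharacter C) : cjI t (irrGal σ χ) = irrGal σ (cjI t χ) := by
  symm
  rw [← isConjCharOf_cjI ht]
  intro h h' e
  change σ ((cjI t χ : C → ℂ) h') = σ ((χ : C → ℂ) h)
  rw [cjI_apply ht χ h h' e]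

theorem gal_exc (d : CycDat p M D D C T f B χ1) (hM : IsPModular p M) [Fintype C]
    (h1 : ∀ z : C, (z : G) ∈ D → (χ1 : C → ℂ) z = (χ1 : C → ℂ) 1)
    {θ : IrrCharacter C → IrrCharacter G} {ε : IrrCharacter G → ℤ} {δ : ℤ}
    (o : CycOut p T f B χ1 θ ε δ) {σ : ℂ ≃+* ℂ}
    (hσ : ∀ ζ : ℂ, ζ ^ (Nat.card G / p ^ (Nat.card G).factorization p) = 1 → σ ζ = ζ)
    {χ : IrrCharacter C} (hχ : χ ∈ f) (hχ1 : χ ≠ χ1) :
    irrGal σ χ ∈ f ∧ irrGal σ χ ≠ χ1 ∧ irrGal σ (θ χ) = θ (irrGal σ χ) := by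
  haveI := hM.2.1.isPrime
  have h2 : irrGal σ χ ∈ f := irrGal_mem hM d.hf (fix_sub hσ C) hχ
  have h3 : irrGal σ χ ≠ χ1 := by
    intro h
    apply hχ1
    apply irrGal_injective σ
    rw [h, gal_one d hM h1 hσ]
  refine ⟨h2, h3, ?_⟩
  refine eq_of_xv o (irrGal_mem hM d.hB hσ (o.mem χ hχ hχ1)) (o.mem _ h2 h3) ?_ ?_
  · intro χ' hχ' hχ1'
    have hs := fix_symm hσ
    have h4 : irrGal σ.symm χ' ∈ f := irrGal_mem hM d.hf (fix_sub hs C) hχ'
    have h5 : irrGal σ.symm χ' ≠ χ1 := by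
      intro h
      apply hχ1'
      rw [← irrGal_symm σ χ', h, gal_one d hM h1 hσ]
    have h6 : CycDat.xv C χ1 (irrGal σ (θ χ)) χ' = CycDat.xv C χ1 (θ χ) (irrGal σ.symm χ') := by
      conv_lhs => rw [← irrGal_symm σ χ']
      exact xv_gal d hM h1 hσ _ _
    rw [h6]
    by_cases h7 : ∃ t ∈ T, cjI t χ = irrGal σ.symm χ'
    · rw [o.exc χ hχ hχ1 _ h4 h5 h7]
      obtain ⟨t, ht, h8⟩ := h7
      rw [o.exc _ h2 h3 χ' hχ' hχ1' ⟨t, ht, by
        rw [cjI_irrGal (d.T_le_NC ht), h8, irrGal_symm]⟩]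
    · rw [o.exc' χ hχ hχ1 _ h4 h5 h7, o.exc' _ h2 h3 χ' hχ' hχ1' ?_]
      rintro ⟨t, ht, h8⟩
      apply h7
      refine ⟨t, ht, ?_⟩
      rw [cjI_irrGal (d.T_le_NC ht)] at h8
      apply irrGal_injective σ
      rw [h8, irrGal_symm]
  · intro g hg
    rw [gal_reg hσ _ hg]
    exact o.exc_reg ⟨χ, hχ, hχ1, rfl⟩ ⟨_, h2, h3, rfl⟩ hg

/-- the nontrivial members of `f` are conjugate under automorphisms fixing the `p'`-roots of unity -/
theorem exists_gal (d : CycDat p M D D C T f B χ1) (hM : IsPModular p M) [Fintype C]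
    (h1 : ∀ z : C, (z : G) ∈ D → (χ1 : C → ℂ) z = (χ1 : C → ℂ) 1)
    {χ χ' : IrrCharacter C} (hχ : χ ∈ f) (hχ1 : χ ≠ χ1) (hχ' : χ' ∈ f) (hχ1' : χ' ≠ χ1) :
    ∃ σ : ℂ ≃+* ℂ, (∀ ζ : ℂ, ζ ^ (Nat.card G / p ^ (Nat.card G).factorization p) = 1 → σ ζ = ζ) ∧
      irrGal σ χ = χ' := by
  classical
  haveI := hM.2.1.isPrime
  have hp' := hp.out
  have hZ := subgroupOf_le_center d.hC
  obtain ⟨x, hx⟩ := d.cyc.exists_generator
  have hxC : (x : G) ∈ C := d.D_le_C x.2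
  have hord : orderOf (x : G) = p := by
    rw [Subgroup.orderOf_coe, orderOf_eq_card_of_forall_mem_zpowers hx, d.card_D1]
  set y : C := ⟨x, hxC⟩ with hy
  have hyZ : ∀ j : ℕ, y ^ j ∈ Subgroup.center C := fun j => by
    apply Subgroup.pow_mem
    exact hZ (Subgroup.mem_subgroupOf.2 x.2)
  have hyp : y ^ p = 1 := by
    apply Subtype.ext
    change (x : G) ^ p = 1
    rw [← hord, pow_orderOf_eq_one]
  -- powers
  have hpow : ∀ ξ : IrrCharacter C, ∀ j : ℕ,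
      (ξ : C → ℂ) (y ^ j) = (ξ : C → ℂ) 1 * ((ξ : C → ℂ) y / (ξ : C → ℂ) 1) ^ j := by
    intro ξ j
    have h0 : (ξ : C → ℂ) 1 ≠ 0 := CharBase.irr_one_ne_zero ξ.2
    induction j with
    | zero => rw [pow_zero, pow_zero, mul_one]
    | succ j ih =>
      have h2 := mul_central ξ (by have := hyZ 1; rwa [pow_one] at this : y ∈ Subgroup.center C) (y ^ j)
      rw [pow_succ, pow_succ, ← mul_assoc, ← ih]
      field_simp
      rw [← h2]
  have hdeg : (χ : C → ℂ) 1 = (χ' : C → ℂ) 1 := eq_on_reg hM d.hf d.defect hZ hχ hχ'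
    (by rw [orderOf_one]; exact fun h => hp'.one_lt.ne' (Nat.dvd_one.1 h))
  set a := (χ : C → ℂ) y / (χ : C → ℂ) 1 with ha
  set a' := (χ' : C → ℂ) y / (χ' : C → ℂ) 1 with ha'
  have hap : ∀ ξ : IrrCharacter C, ((ξ : C → ℂ) y / (ξ : C → ℂ) 1) ^ p = 1 := by
    intro ξ
    have h2 := hpow ξ p
    rw [hyp] at h2
    have h0 : (ξ : C → ℂ) 1 ≠ 0 := CharBase.irr_one_ne_zero ξ.2
    exact (mul_left_cancel₀ h0 (by rw [mul_one]; exact h2)).symm
  have hne : ∀ ξ ∈ f, ξ ≠ χ1 → (ξ : C → ℂ) y / (ξ : C → ℂ) 1 ≠ 1 := by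
    intro ξ hξ hξ1 h
    apply hξ1
    refine eq_of_eq_on_defect hM d.hf d.defect hZ hξ d.one_mem ?_
    intro z hz
    have hz' := Subgroup.mem_subgroupOf.1 hz
    obtain ⟨j, hj⟩ : ∃ j : ℕ, z = y ^ j := by
      have h2 := hx ⟨z, hz'⟩
      rw [← mem_powers_iff_mem_zpowers] at h2
      obtain ⟨j, hj⟩ := h2
      refine ⟨j, Subtype.ext ?_⟩
      have := congrArg Subtype.val hj
      exact this.symm
    rw [h1 z hz', hj, hpow ξ j, h, one_pow, mul_one]
    exact eq_on_reg hM d.hf d.defect hZ hξ d.one_mem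
      (by rw [orderOf_one]; exact fun h => hp'.one_lt.ne' (Nat.dvd_one.1 h))
  have hprim : IsPrimitiveRoot a p := by
    rw [← orderOf_eq_prime (hap χ) (hne χ hχ hχ1)]
    exact IsPrimitiveRoot.orderOf a
  haveI : NeZero p := ⟨hp'.ne_zero⟩
  obtain ⟨k, hkp, hk⟩ := hprim.eq_pow_of_pow_eq_one (hap χ')
  have hk0 : k ≠ 0 := by
    rintro rfl
    rw [pow_zero] at hk
    exact hne χ' hχ' hχ1' hk.symm
  set g' := Nat.card G / p ^ (Nat.card G).factorization p with hg'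
  have hcop : Nat.Coprime p g' := by
    rw [hg']
    exact Nat.coprime_ordCompl hp' Nat.card_pos.ne'
  obtain ⟨K, hK1, hK2⟩ := Nat.chineseRemainder hcop k 1
  have hg0 : g' ≠ 0 := H75.gp'_ne_zero (G := G) (p := p)
  have hKcop : K.Coprime (Nat.card G) := by
    have h2 : p ^ (Nat.card G).factorization p * g' = Nat.card G := Nat.ordProj_mul_ordCompl_eq_self _ _
    rw [← h2]
    refine Nat.Coprime.mul_right (Nat.Coprime.pow_right _ ?_) ?_
    · have h3 : Nat.Coprime k p := by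
        rw [Nat.coprime_comm, hp'.coprime_iff_not_dvd]
        intro h
        exact absurd (Nat.le_of_dvd (Nat.pos_of_ne_zero hk0) h) (not_le.2 hkp)
      have h4 := hK1.gcd_eq
      unfold Nat.Coprime at h3 ⊢
      rw [h4, h3]
    · have h4 := hK2.gcd_eq
      unfold Nat.Coprime
      rw [h4, Nat.gcd_one_left]
  obtain ⟨σ, hσ⟩ := exists_aut_pow (Nat.card_pos (α := G)).ne' hKcop
  refine ⟨σ, ?_, ?_⟩
  · intro ζ hζ
    have h2 : g' ∣ Nat.card G := Nat.ordCompl_dvd _ _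
    obtain ⟨m, hm⟩ := h2
    rw [hσ ζ (by rw [hm, pow_mul, hζ, one_pow])]
    nth_rewrite 2 [← pow_one ζ]
    exact pow_eq_pow_of_modEq hK2 hζ
  · have hσf : ∀ ζ : ℂ, ζ ^ (Nat.card G / p ^ (Nat.card G).factorization p) = 1 → σ ζ = ζ := by
      intro ζ hζ
      have h2 : g' ∣ Nat.card G := Nat.ordCompl_dvd _ _
      obtain ⟨m, hm⟩ := h2
      rw [hσ ζ (by rw [hm, pow_mul, hζ, one_pow])]
      nth_rewrite 2 [← pow_one ζ]
      exact pow_eq_pow_of_modEq hK2 hζ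
    have hmem : irrGal σ χ ∈ f := irrGal_mem hM d.hf (fix_sub hσf C) hχ
    refine eq_of_eq_on_defect hM d.hf d.defect hZ hmem hχ' ?_
    intro z hz
    have hz' := Subgroup.mem_subgroupOf.1 hz
    obtain ⟨j, hj⟩ : ∃ j : ℕ, z = y ^ j := by
      have h2 := hx ⟨z, hz'⟩
      rw [← mem_powers_iff_mem_zpowers] at h2
      obtain ⟨j, hj⟩ := h2
      refine ⟨j, Subtype.ext ?_⟩
      have := congrArg Subtype.val hj
      exact this.symm
    change σ ((χ : C → ℂ) z) = _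
    have haG : a ^ Nat.card G = 1 := by
      have h2 : p ∣ Nat.card G := by
        rw [← d.card_D1]; exact Subgroup.card_subgroup_dvd_card D
      obtain ⟨m, hm⟩ := h2
      rw [hm, pow_mul, hap χ, one_pow]
    have h5 : a ^ K = a' := by
      rw [ha', ← hk]
      exact pow_eq_pow_of_modEq hK1 (hap χ)
    rw [hj, hpow χ j, hpow χ' j, map_mul, map_pow, ← ha, ← ha', hσ a haG, h5, ← hdeg,
      charDegree_spec, map_natCast]

end

end Cfsg.Agent.H79
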