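import Cfsg.Agent.H79.HksBound
import Cfsg.Agent.H79.PFam
import Cfsg.Agent.BlkC.Corollaries

/-!
# Star shaped principal blocks: order prime to `p` or exactly divisible by `p`
(owner: helper79)
-/

set_option autoImplicit false
set_option linter.unusedSectionVars false
set_option linter.style.haveILetI false

universe u v

namespace Cfsg.Agent.H79.Hks

open scoped ComplexConjugate
open Cfsg Cfsg.Agent.Blk Cfsg.Agent.CharBase Cfsg.Agent.BlkC Cfsg.Agent.BlkInd

variable {p : ℕ} [hp : Fact p.Prime] {M : Ideal AlgInt} [hMp : M.IsPrime]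

theorem star_zero (hM : IsPModular p M) {K : Type u} [Group K] [Fintype K]
    (hK : (Nat.card K).factorization p = 0) :
    Star p M {oneIrr K} (fun _ : IrrCharacter K => 1) 0 := by
  classical
  have hB : IsPBlock M (principalBlock M K) := isPBlock_principalBlock M
  have h1 : blockDefect p (principalBlock M K) = 0 := by rw [blockDefect_principalBlock, hK]
  have h2 := card_eq_one_of_defect_eq_zero hM hB h1
  have hone : oneIrr K ∈ principalBlock M K := one_mem_principal
  have h3 : Bfin (principalBlock M K) = {oneIrr K} := by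
    rw [natCard_eq_Bfin, Finset.card_eq_one] at h2
    obtain ⟨χ, hχ⟩ := h2
    rw [hχ]
    have h4 : oneIrr K ∈ Bfin (principalBlock M K) := mem_Bfin.2 hone
    rw [hχ, Finset.mem_singleton] at h4
    rw [h4]
  refine ⟨fun _ _ => Or.inl rfl, ?_, ?_, ?_⟩
  · intro ψ hψ
    have h4 : ψ = oneIrr K := by
      have := mem_Bfin.2 hψ
      rw [h3, Finset.mem_singleton] at this
      exact this
    refine ⟨fun _ => 1, fun y _ => ?_⟩
    rw [Finset.sum_singleton, h4]
    simp
  · intro c hc χ hχ
    rw [Finset.mem_singleton] at hχ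
    subst hχ
    have h4 := hc 1 (by rw [orderOf_one]; exact fun h => hp.out.one_lt.ne' (Nat.dvd_one.1 h))
    rw [Finset.sum_singleton] at h4
    have h5 : ((oneIrr K : IrrCharacter K) : K → ℂ) 1 = 1 := rfl
    rw [h5, mul_one] at h4
    exact h4
  · intro s t _ _
    rw [blockKernel_eq_Bfin, h3]
    simp

theorem add_le_of_mul_eq {e k q : ℕ} (he : 0 < e) (hk : 0 < k) (h : e * k + 1 = q) : e + k ≤ q := by
  rw [← h]
  nlinarith [Nat.succ_le_of_lt he, Nat.succ_le_of_lt hk]

theorem star_one (hM : IsPModular p M) {K : Type u} [Group K] [Fintype K]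
    (hK : (Nat.card K).factorization p = 1) :
    ∃ (X : Finset (IrrCharacter K)) (ε : IrrCharacter K → ℤ) (m : ℕ),
      Star p M X ε m ∧ X.card + m ≤ p := by
  classical
  have hB : IsPBlock M (principalBlock M K) := isPBlock_principalBlock M
  have h1 : blockDefect p (principalBlock M K) = 1 := by rw [blockDefect_principalBlock, hK]
  obtain ⟨D, hD⟩ := exists_defectGroup hM hB
  have hDc : Nat.card D = p := by rw [card_defectGroup hM hB hD, h1, pow_one]
  obtain ⟨T, f, χ1, d, -, hf, hrk⟩ := exists_data hM hB hD hDc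
  obtain ⟨he1, -, X, Y, hXY, hdisj, hXc, hYc, -, δ, δ₀, hδ, hδ₀, hrel, -⟩ :=
    d.conclusion hM hD (by rw [hf, hDc]) hrk
  obtain ⟨e, he⟩ : ∃ e, e = (Subgroup.centralizer (D : Set K)).relIndex T := ⟨_, rfl⟩
  rw [← he] at he1 hXc hYc hrk
  rw [hDc] at hYc
  have hXfin : X.Finite := Set.toFinite X
  have hYfin : Y.Finite := Set.toFinite Y
  have hXcard : hXfin.toFinset.card = e := by
    rw [← hXc]
    exact (Nat.card_coe_set_eq X ▸ (Set.ncard_eq_toFinset_card X hXfin)).symm
  have hYcard : hYfin.toFinset.card = (p - 1) / e := by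
    rw [← hYc]
    exact (Nat.card_coe_set_eq Y ▸ (Set.ncard_eq_toFinset_card Y hYfin)).symm
  have hp1 : 0 < p - 1 := by have := hp.out.two_le; omega
  have hepos : 0 < e := Nat.pos_of_dvd_of_pos he1 hp1
  have hδ₀2 : (δ₀ : ℂ) * (δ₀ : ℂ) = 1 := by
    rcases hδ₀ with h | h <;> rw [h] <;> norm_num
  have hrel' : ∀ ψ ∈ Y, ∀ g : K, ¬ p ∣ orderOf g → (ψ : K → ℂ) g =
      - (δ₀ : ℂ) * ∑ χ ∈ hXfin.toFinset, (δ χ : ℂ) * (χ : K → ℂ) g := by
    intro ψ hψ g hg
    have h2 := hrel ψ hψ g hg
    rw [finsum_mem_eq_finite_toFinset_sum _ hXfin] at h2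
    linear_combination (δ₀ : ℂ) * h2 - (ψ : K → ℂ) g * hδ₀2
  refine ⟨hXfin.toFinset, δ, (p - 1) / e, ⟨?_, ?_, ?_, ?_⟩, ?_⟩
  · intro χ hχ
    exact hδ χ (hXfin.mem_toFinset.1 hχ)
  · intro ψ hψ
    rw [hXY] at hψ
    rcases hψ with hψ | hψ
    · refine ⟨fun χ => if χ = ψ then 1 else 0, fun y _ => ?_⟩
      rw [Finset.sum_eq_single ψ]
      · simp
      · intro χ _ hne
        simp [hne]
      · intro h; exact absurd (hXfin.mem_toFinset.2 hψ) h
    · refine ⟨fun χ => - δ₀ * δ χ, fun y hy => ?_⟩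
      rw [hrel' ψ hψ y hy, Finset.mul_sum]
      refine Finset.sum_congr rfl fun χ _ => ?_
      push_cast
      ring
  · -- linear independence by rank
    have hspan : Submodule.span ℂ ((fun χ : IrrCharacter K => pRegularPart p (χ : K → ℂ)) ''
        principalBlock M K) ≤ Submodule.span ℂ (Set.range
          (fun χ : hXfin.toFinset => pRegularPart p ((χ : IrrCharacter K) : K → ℂ))) := by
      rw [Submodule.span_le]
      rintro _ ⟨ψ, hψ, rfl⟩
      rw [hXY] at hψ
      rcases hψ with hψ | hψ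
      · exact Submodule.subset_span ⟨⟨ψ, hXfin.mem_toFinset.2 hψ⟩, rfl⟩
      · have h2 : pRegularPart p (ψ : K → ℂ) = ∑ χ : hXfin.toFinset,
            (- (δ₀ : ℂ) * (δ (χ : IrrCharacter K) : ℂ)) •
              pRegularPart p ((χ : IrrCharacter K) : K → ℂ) := by
          funext g
          rw [Finset.sum_apply]
          by_cases hg : p ∣ orderOf g
          · rw [pRegularPart_apply_of_sing hg]
            symm
            refine Finset.sum_eq_zero fun χ _ => ?_
            rw [Pi.smul_apply, pRegularPart_apply_of_sing hg, smul_zero]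
          · rw [pRegularPart_apply_of_reg hg, hrel' ψ hψ g hg, Finset.mul_sum,
              ← Finset.sum_coe_sort]
            refine Finset.sum_congr rfl fun χ _ => ?_
            rw [Pi.smul_apply, pRegularPart_apply_of_reg hg, smul_eq_mul]
            ring
        simp only
        rw [h2]
        exact Submodule.sum_mem _ fun χ _ => Submodule.smul_mem _ _ (Submodule.subset_span ⟨χ, rfl⟩)
    have hfin : e ≤ Module.finrank ℂ (Submodule.span ℂ (Set.range
          (fun χ : hXfin.toFinset => pRegularPart p ((χ : IrrCharacter K) : K → ℂ)))) := by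
      refine hrk.trans ?_
      unfold blockRank
      exact Submodule.finrank_mono hspan
    have hli : LinearIndependent ℂ
        (fun χ : hXfin.toFinset => pRegularPart p ((χ : IrrCharacter K) : K → ℂ)) := by
      rw [linearIndependent_iff_card_eq_finrank_span]
      apply le_antisymm
      · rw [Fintype.card_coe, hXcard]
        exact hfin
      · exact finrank_range_le_card _
    intro c hc χ hχ
    rw [Fintype.linearIndependent_iff] at hli
    refine hli (fun χ => c χ) ?_ ⟨χ, hχ⟩
    funext g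
    rw [Finset.sum_apply, Pi.zero_apply]
    by_cases hg : p ∣ orderOf g
    · refine Finset.sum_eq_zero fun χ _ => ?_
      rw [Pi.smul_apply, pRegularPart_apply_of_sing hg, smul_zero]
    · rw [← hc g hg, ← Finset.sum_coe_sort hXfin.toFinset
        (fun χ : IrrCharacter K => c χ * (χ : K → ℂ) g)]
      refine Finset.sum_congr rfl fun χ _ => ?_
      rw [Pi.smul_apply, pRegularPart_apply_of_reg hg, smul_eq_mul]
  · intro s t hs ht
    have h2 : Bfin (principalBlock M K) = hXfin.toFinset ∪ hYfin.toFinset := by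
      ext χ
      rw [mem_Bfin, Finset.mem_union, hXfin.mem_toFinset, hYfin.mem_toFinset, hXY]
      rfl
    have h3 : Disjoint hXfin.toFinset hYfin.toFinset := by
      rw [Set.Finite.disjoint_toFinset]; exact hdisj
    rw [blockKernel_eq_Bfin, h2, Finset.sum_union h3]
    congr 1
    have h4 : ∀ ψ ∈ hYfin.toFinset, (ψ : K → ℂ) s * conj ((ψ : K → ℂ) t) =
        (∑ χ ∈ hXfin.toFinset, (δ χ : ℂ) * (χ : K → ℂ) s) *
        conj (∑ χ ∈ hXfin.toFinset, (δ χ : ℂ) * (χ : K → ℂ) t) := by
      intro ψ hψ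
      have h5 := hYfin.mem_toFinset.1 hψ
      rw [hrel' ψ h5 s hs, hrel' ψ h5 t ht, map_mul, map_neg]
      have h6 : conj ((δ₀ : ℤ) : ℂ) = (δ₀ : ℂ) := map_intCast _ _
      rw [h6]
      linear_combination ((∑ χ ∈ hXfin.toFinset, (δ χ : ℂ) * (χ : K → ℂ) s) *
        conj (∑ χ ∈ hXfin.toFinset, (δ χ : ℂ) * (χ : K → ℂ) t)) * hδ₀2
    rw [Finset.sum_congr rfl h4, Finset.sum_const, nsmul_eq_mul, hYcard]
  · rw [hXcard]
    have h2 : e * ((p - 1) / e) = p - 1 := Nat.mul_div_cancel' he1
    refine add_le_of_mul_eq hepos ?_ (by rw [h2]; have := hp.out.two_le; omega)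
    exact Nat.div_pos (Nat.le_of_dvd hp1 he1) hepos

end Cfsg.Agent.H79.Hks
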