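import Cfsg.Agent.H76.ExtFirst
import Cfsg.Agent.H76.Induced
import Cfsg.Agent.BlkF.Sat
import Cfsg.Agent.BlkF.Index
import Cfsg.Agent.BlkInd.Canon2
import Cfsg.Agent.BlkInd.FirstMain
import Cfsg.Agent.BlkInd.DefectApp2
import Cfsg.Agent.Blk.Orth2
import Cfsg.Agent.Blk.Dict
import Cfsg.Agent.H75.Tools
import Cfsg.Agent.Char.CentralChar

/-!
# Maximal Brauer pairs and canonical characters (S4828)
-/

set_option autoImplicit false
set_option linter.unusedSectionVars false
set_option linter.style.haveILetI false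
set_option linter.unusedVariables false

namespace Cfsg.Agent.H79

open Cfsg Cfsg.Agent.CharBase Cfsg.Agent.Blk Cfsg.Agent.Char
open scoped ComplexConjugate

universe u

section central

theorem normal_of_le_center {G : Type*} [Group G] {Z : Subgroup G} (h : Z ≤ Subgroup.center G) :
    Z.Normal := by
  constructor
  intro n hn g
  rw [Subgroup.mem_center_iff.1 (h hn) g, mul_inv_cancel_right]
  exact hn

variable {G : Type u} [Group G] [Finite G] {p : ℕ} [Fact p.Prime] {M : Ideal AlgInt}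

theorem vanish_of_canon {Z : Subgroup G} (hZc : Z ≤ Subgroup.center G) (hZp : IsPGroup p Z)
    {θ : IrrCharacter G} (hker : ∀ z ∈ Z, (θ : G → ℂ) z = (θ : G → ℂ) 1)
    (hdeg : (charDegree (θ : G → ℂ)).factorization p + (Nat.card Z).factorization p =
      (Nat.card G).factorization p) :
    ∀ z : G, BlkInd.ppart p z ∉ Z → (θ : G → ℂ) z = 0 := by
  have hp : p.Prime := Fact.out
  have hn : Z.Normal := normal_of_le_center hZc
  have := Fintype.ofFinite (G ⧸ Z)
  intro z hz
  obtain ⟨χ', hχ', hχe⟩ := Cfsg.Agent.H75.exists_deflate_irr Z θ.2 hker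
  have hcard : (Nat.card (G ⧸ Z)).factorization p + (Nat.card Z).factorization p =
      (Nat.card G).factorization p := by
    rw [Subgroup.card_eq_card_quotient_mul_card_subgroup Z,
      Nat.factorization_mul Nat.card_pos.ne' Nat.card_pos.ne', Finsupp.add_apply]
  rw [← hχe]
  refine Cfsg.Agent.Char.DZ.eq_zero_of_defect_zero p ((Nat.card (G ⧸ Z)).factorization p) hp
    (Nat.pow_succ_factorization_not_dvd Nat.card_pos.ne' hp) hχ' (d := charDegree (θ : G → ℂ)) ?_ ?_
    (QuotientGroup.mk z) ?_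
  · rw [← QuotientGroup.mk_one, hχe, BlkC.charDegree_spec θ]
  · have h1 : (Nat.card (G ⧸ Z)).factorization p = (charDegree (θ : G → ℂ)).factorization p := by omega
    rw [h1]
    exact Nat.ordProj_dvd _ _
  · by_contra hcon
    apply hz
    obtain ⟨j, hj⟩ := Subgroup.mem_zpowers_iff.1 (BlkInd.isPPart_mem_zpowers hp (BlkInd.ppart_spec (p := p) z))
    set m := orderOf (QuotientGroup.mk z : G ⧸ Z) with hm
    have h1 : z ^ m ∈ Z := by
      rw [← QuotientGroup.eq_one_iff, QuotientGroup.mk_pow, hm, pow_orderOf_eq_one]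
    have h2 : (BlkInd.ppart p z) ^ m ∈ Z := by
      rw [← hj, ← zpow_natCast, ← zpow_mul, mul_comm, zpow_mul, zpow_natCast]
      exact Z.zpow_mem h1 j
    obtain ⟨v, -, -, ⟨k, hk⟩, -⟩ := BlkInd.ppart_spec (p := p) z
    have hcop : m.Coprime (orderOf (BlkInd.ppart p z)) := by
      rw [hk]
      exact Nat.Coprime.pow_right _ ((Nat.Prime.coprime_iff_not_dvd hp).2 hcon).symm
    obtain ⟨l, hl⟩ := exists_pow_eq_self_of_coprime hcop
    rw [← hl]
    exact Z.pow_mem h2 l

theorem sup_centralizer_eq_top {Z : Subgroup G} (hZc : Z ≤ Subgroup.center G) :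
    Z ⊔ Subgroup.centralizer (Z : Set G) = ⊤ := by
  rw [eq_top_iff]
  refine le_trans ?_ le_sup_right
  intro g _
  rw [Subgroup.mem_centralizer_iff]
  intro z hz
  exact (Subgroup.mem_center_iff.1 (hZc hz) g).symm

/-- the defect group of a block with a central canonical character -/
theorem isDefectGroup_of_canon (hM : IsPModular p M) {Z : Subgroup G}
    (hZc : Z ≤ Subgroup.center G) (hZp : IsPGroup p Z) {B : Set (IrrCharacter G)}
    (hB : IsPBlock M B) {θ : IrrCharacter G} (hθ : θ ∈ B)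
    (hker : ∀ z ∈ Z, (θ : G → ℂ) z = (θ : G → ℂ) 1)
    (hdeg : (charDegree (θ : G → ℂ)).factorization p + (Nat.card Z).factorization p =
      (Nat.card G).factorization p) : IsDefectGroup p M B Z := by
  classical
  haveI := isPrime_of_isPModular hM
  have := Fintype.ofFinite G
  have := Fintype.ofFinite Z
  have := Fintype.ofFinite (IrrCharacter Z)
  have hp : p.Prime := Fact.out
  have hn : Z.Normal := normal_of_le_center hZc
  have hG := sup_centralizer_eq_top hZc
  have hvan := vanish_of_canon hZc hZp hker hdeg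
  have hab : ∀ a b : Z, a * b = b * a := fun a b => Subtype.ext
    (Subgroup.mem_center_iff.1 (hZc b.2) a)
  let c : IrrCharacter Z → IrrCharacter G := fun ζ =>
    ⟨BlkInd.canonMul p Z (ζ : Z → ℂ) (θ : G → ℂ),
      BlkInd.canonMul_isIrrCharacter hG hZp ζ θ.2 hker hvan⟩
  have hc : ∀ ζ g, (c ζ : G → ℂ) g = extendByZero Z ζ (BlkInd.ppart p g) * (θ : G → ℂ) g :=
    fun _ _ => rfl
  have hp1 : BlkInd.ppart p (1 : G) = 1 := BlkInd.ppart_of_regular (p := p) (by
    rw [orderOf_one]; exact hp.one_lt.ne' ∘ Nat.dvd_one.mp)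
  have hext1 : ∀ ζ : IrrCharacter Z, extendByZero Z (ζ : Z → ℂ) 1 = (ζ : Z → ℂ) 1 := by
    intro ζ
    rw [extendByZero_of_mem Z _ Z.one_mem]
    rfl
  have hinj : Function.Injective c := by
    intro ζ ζ' h
    apply Subtype.ext
    funext u
    have h1 := BlkInd.canonMul_coe (p := p) hG hZp (ζ : Z → ℂ) (isCharacter_of_isIrr θ.2) hker u
    have h2 := BlkInd.canonMul_coe (p := p) hG hZp (ζ' : Z → ℂ) (isCharacter_of_isIrr θ.2) hker u
    have h3 : (c ζ : G → ℂ) u = (c ζ' : G → ℂ) u := by rw [h]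
    change BlkInd.canonMul p Z (ζ : Z → ℂ) (θ : G → ℂ) u =
      BlkInd.canonMul p Z (ζ' : Z → ℂ) (θ : G → ℂ) u at h3
    rw [h1, h2] at h3
    exact mul_right_cancel₀ (irr_one_ne_zero θ.2) h3
  have hlin : ∀ ζ : IrrCharacter Z, (ζ : Z → ℂ) 1 = 1 := by
    intro ζ
    refine CC.degree_one_of_commutator ζ.2 fun x y => ?_
    rw [commutatorElement_def, hab x y]
    congr 1
    group
  -- the coefficients are local
  have hA : ∀ g : G, MemLocalRing M (blockCoeff (Set.range c) g) := by
    intro g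
    have h1 : blockCoeff (Set.range c) g =
        (Nat.card G : ℂ)⁻¹ * ((θ : G → ℂ) 1 * conj ((θ : G → ℂ) g) *
          ∑ ζ : IrrCharacter Z, (ζ : Z → ℂ) 1 *
            conj (extendByZero Z (ζ : Z → ℂ) (BlkInd.ppart p g))) := by
      unfold blockCoeff
      congr 1
      rw [finsum_mem_range hinj, finsum_eq_sum_of_fintype, Finset.mul_sum]
      refine Finset.sum_congr rfl fun ζ _ => ?_
      rw [hc, hc, hp1, hext1, map_mul]
      ring
    rw [h1]
    by_cases hg : BlkInd.ppart p g ∈ Z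
    · have h2 : ∑ ζ : IrrCharacter Z, (ζ : Z → ℂ) 1 *
          conj (extendByZero Z (ζ : Z → ℂ) (BlkInd.ppart p g)) =
          if (1 : Z) = ⟨_, hg⟩ then (Nat.card Z : ℂ) else 0 := by
        have h3 := column_orthogonality (1 : Z) ⟨_, hg⟩
        have h4 : IsConj (1 : Z) ⟨_, hg⟩ ↔ (1 : Z) = ⟨_, hg⟩ := by
          rw [isConj_one_right]; exact eq_comm
        have h5 : Nat.card (Subgroup.centralizer ({(1 : Z)} : Set Z)) = Nat.card Z := by
          rw [Subgroup.centralizer_eq_top_iff_subset.2 (by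
            intro x hx
            rw [Set.mem_singleton_iff] at hx
            rw [hx]; exact Subgroup.one_mem _), Subgroup.card_top]
        simp only [h4, h5] at h3
        rw [← h3]
        refine Finset.sum_congr rfl fun ζ _ => ?_
        rw [extendByZero_of_mem Z _ hg]
      rw [h2]
      split_ifs
      · have h6 : (Nat.card G : ℂ)⁻¹ * ((θ : G → ℂ) 1 * conj ((θ : G → ℂ) g) * (Nat.card Z : ℂ)) =
            (((charDegree (θ : G → ℂ) * Nat.card Z : ℕ) : ℂ) / (Nat.card G : ℕ)) *
              conj ((θ : G → ℂ) g) := by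
          rw [BlkC.charDegree_spec θ]; push_cast; ring
        rw [h6]
        refine mlr_mul (H76.mlr_div_of_le hM Nat.card_pos.ne' (Or.inl ?_)) ?_
        · rw [Nat.factorization_mul (BlkC.charDegree_pos θ).ne' Nat.card_pos.ne', Finsupp.add_apply, hdeg]
        · rw [← irr_inv]; exact mlr_irr θ _
      · rw [mul_zero, mul_zero]; exact mlr_zero
    · have h2 : ∑ ζ : IrrCharacter Z, (ζ : Z → ℂ) 1 *
          conj (extendByZero Z (ζ : Z → ℂ) (BlkInd.ppart p g)) = 0 := by
        refine Finset.sum_eq_zero fun ζ _ => ?_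
        rw [extendByZero_of_notMem Z _ hg, map_zero, mul_zero]
      rw [h2, mul_zero, mul_zero]; exact mlr_zero
  have hθ1 : θ ∈ Set.range c := by
    refine ⟨oneIrr Z, Subtype.ext ?_⟩
    funext g
    rw [hc]
    by_cases hg : BlkInd.ppart p g ∈ Z
    · rw [extendByZero_of_mem Z _ hg]
      change (1 : ℂ) * _ = _
      rw [one_mul]
    · rw [hvan g hg, mul_zero]
  have hBA : B ⊆ Set.range c := by
    rw [isPBlock_eq_blockOf hB hθ]
    exact blockOf_subset_of_mlr hA hθ1
  -- the defect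
  have hmin : BlkC.nuMin p B = (charDegree (θ : G → ℂ)).factorization p := by
    obtain ⟨χ, hχ, hχ2⟩ := BlkC.exists_nuMin (p := p) (B := B) ⟨θ, hθ⟩
    obtain ⟨ζ, hζ⟩ := hBA hχ
    rw [← hχ2]
    change (charDegree (χ : G → ℂ)).factorization p = _
    have h1 : (χ : G → ℂ) 1 = (θ : G → ℂ) 1 := by
      rw [← hζ, hc, hp1, hext1, hlin, one_mul]
    have h2 : ((charDegree (χ : G → ℂ) : ℕ) : ℂ) = ((charDegree (θ : G → ℂ) : ℕ) : ℂ) := by
      rw [← BlkC.charDegree_spec χ, ← BlkC.charDegree_spec θ, h1]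
    have h3 : charDegree (χ : G → ℂ) = charDegree (θ : G → ℂ) := by exact_mod_cast h2
    rw [h3]
  obtain ⟨D, hD⟩ := BlkInd.exists_defectGroup hM hB
  have hcard := BlkInd.card_defectGroup hM hB hD
  have hdef := BlkC.defect_add_nuMin (p := p) (B := B) ⟨θ, hθ⟩
  have hZD : Z ≤ D := BlkInd.normal_le_defectGroup hM hZp hB hD
  have hZcard : Nat.card Z = p ^ (Nat.card Z).factorization p := by
    obtain ⟨k, hk⟩ := IsPGroup.iff_card.1 hZp
    rw [hk, Nat.Prime.factorization_pow hp, Finsupp.single_eq_same]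
  have h1 : Nat.card D = Nat.card Z := by
    rw [hcard, hZcard]
    congr 1
    omega
  have h2 : Z = D := Subgroup.eq_of_le_of_card_ge hZD h1.le
  rw [h2]; exact hD

end central

section modular

variable {k : Type*} [Field k] {G : Type*} [Group G] [Finite G] {p : ℕ} [Fact p.Prime] [CharP k p]

theorem normalizer_le_normalizer_sup (Q : Subgroup G) : Subgroup.normalizer (Q : Set G) ≤
    Subgroup.normalizer ((Q ⊔ Subgroup.centralizer (Q : Set G) : Subgroup G) : Set G) := by
  intro u hu'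
  rw [Subgroup.mem_normalizer_iff]
  have h1 : (Q ⊔ Subgroup.centralizer (Q : Set G)).map (MulAut.conj u).toMonoidHom =
      Q ⊔ Subgroup.centralizer (Q : Set G) := by
    rw [Subgroup.map_sup, map_conj_of_mem_normalizer hu',
      map_conj_of_mem_normalizer (normalizer_le_normalizer_centralizer Q hu')]
  intro g
  have h3 := mem_map_conj_iff (Q ⊔ Subgroup.centralizer (Q : Set G)) u (u * g * u⁻¹)
  rw [h1] at h3
  have h4 : u⁻¹ * (u * g * u⁻¹) * u = g := by group
  rw [h3, h4]

theorem normal_subgroupOf_of_le {H T : Subgroup G} (h : T ≤ Subgroup.normalizer (H : Set G)) :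
    (H.subgroupOf T).Normal := by
  constructor
  intro n hn g
  rw [Subgroup.mem_subgroupOf] at hn ⊢
  exact (Subgroup.mem_normalizer_iff.1 (h g.2) n).1 hn

/-- `p`-elements and subgroups of index prime to `p` -/
theorem mem_of_not_dvd {H T : Subgroup G} (h : T ≤ Subgroup.normalizer (H : Set G))
    (hp : ¬ p ∣ H.relIndex T) {g : G} (hg : g ∈ T) (hgp : ∃ k : ℕ, orderOf g = p ^ k) : g ∈ H := by
  have := normal_subgroupOf_of_le h
  have h1 : (⟨g, hg⟩ : T) ^ (H.relIndex T) ∈ H.subgroupOf T :=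
    Subgroup.pow_index_mem (H.subgroupOf T) _
  rw [Subgroup.mem_subgroupOf] at h1
  have h2 : g ^ (H.relIndex T) ∈ H := by simpa using h1
  obtain ⟨j, hj⟩ := hgp
  have hcop : (H.relIndex T).Coprime (orderOf g) := by
    rw [hj]
    exact Nat.Coprime.pow_right _ (((Nat.Prime.coprime_iff_not_dvd Fact.out).2 hp).symm)
  obtain ⟨m, hm⟩ := exists_pow_eq_self_of_coprime hcop
  rw [← hm]
  exact H.pow_mem h2 m

theorem not_dvd_of_mem {H T : Subgroup G} (hHT : H ≤ T) (h : T ≤ Subgroup.normalizer (H : Set G))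
    (hall : ∀ g ∈ T, (∃ k : ℕ, orderOf g = p ^ k) → g ∈ H) : ¬ p ∣ H.relIndex T := by
  intro hdvd
  have hp : p.Prime := Fact.out
  have := normal_subgroupOf_of_le h
  have hdvd' : p ∣ Nat.card (T ⧸ H.subgroupOf T) := by
    rw [← Subgroup.index_eq_card]; exact hdvd
  obtain ⟨q, hq⟩ := exists_prime_orderOf_dvd_card' p hdvd'
  induction q using QuotientGroup.induction_on with
  | H x =>
    set n := orderOf x with hn
    have hn0 : n ≠ 0 := (orderOf_pos x).ne'
    obtain ⟨a, m, hm, hnm⟩ := Nat.exists_eq_pow_mul_and_not_dvd hn0 p hp.one_lt.ne'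
    have h1 : ∃ k : ℕ, orderOf ((x : G) ^ m) = p ^ k := by
      have h2 : ((x : G) ^ m) ^ p ^ a = 1 := by
        rw [← pow_mul, mul_comm, ← hnm, hn, ← Subgroup.orderOf_coe, pow_orderOf_eq_one]
      obtain ⟨k, -, hk⟩ := (Nat.dvd_prime_pow hp).1 (orderOf_dvd_of_pow_eq_one h2)
      exact ⟨k, hk⟩
    have h2 := hall ((x : G) ^ m) (T.pow_mem x.2 m) h1
    have h3 : (QuotientGroup.mk x : T ⧸ H.subgroupOf T) ^ m = 1 := by
      rw [← QuotientGroup.mk_pow, QuotientGroup.eq_one_iff, Subgroup.mem_subgroupOf]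
      simpa using h2
    have h4 := orderOf_dvd_of_pow_eq_one h3
    rw [hq] at h4
    exact hm h4

theorem br_ne_of_le {D E : Subgroup G} (h : D ≤ E) {f : MonoidAlgebra k G} (hE : br E f ≠ 0) :
    br D f ≠ 0 := by
  intro h0
  apply hE
  rw [← br_br_of_le h, h0, br_zero]

/-- maximal pairs -/
theorem mmax_iff {Q : Subgroup G} {f : MonoidAlgebra k G} (h : MPair p Q f)
    (hsp : BlkF.SplitBlk (Subgroup.centralizer (Q : Set G)) f) :
    MMax p Q f ↔ IsDef p (Subgroup.centralizer (Q : Set G)) f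
        (Q ⊓ Subgroup.centralizer (Q : Set G)) ∧
      ∀ g ∈ stab (Subgroup.normalizer (Q : Set G)) f, (∃ k : ℕ, orderOf g = p ^ k) →
        g ∈ Q ⊔ Subgroup.centralizer (Q : Set G) := by
  set C := Subgroup.centralizer (Q : Set G) with hC
  set T := stab (Subgroup.normalizer (Q : Set G)) f with hT
  have hQT : Q ≤ T := le_stab h.blk
  have hCT : C ≤ T := centralizer_le_stab h.blk
  have hTN : T ≤ Subgroup.normalizer (Q : Set G) := stab_le _ _
  have hTC : T ≤ Subgroup.normalizer (C : Set G) :=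
    hTN.trans (normalizer_le_normalizer_centralizer Q)
  have hTH : T ≤ Subgroup.normalizer ((Q ⊔ C : Subgroup G) : Set G) :=
    hTN.trans (normalizer_le_normalizer_sup Q)
  have hHT : Q ⊔ C ≤ T := sup_le hQT hCT
  have hbrQ : br Q f = f := br_of_supp h.blk.supp
  constructor
  · intro hm
    have hd := hm.isDef_stab
    constructor
    · obtain ⟨D', hD'⟩ := h.blk.exists_isDef p
      refine hD'.of_card_le h.blk.fixed inf_le_right (h.isPGroup.to_le inf_le_left) ?_ ?_
      · exact br_ne_of_le inf_le_left (by rw [hbrQ]; exact h.blk.ne_zero)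
      · obtain ⟨u, hu, hle⟩ := hd.le_of_br_ne (hD'.le.trans hCT) hD'.isPGroup hD'.br_ne
        rw [map_conj_of_mem_normalizer (hTN hu)] at hle
        exact Subgroup.card_le_of_le (le_inf hle hD'.le)
    · intro g hg hgp
      exact mem_of_not_dvd hTH (BlkF.not_dvd_relIndex h.blk hsp hCT hTC (fixed_stab _ _) hd) hg hgp
  · rintro ⟨hd, hall⟩
    have hnd := not_dvd_of_mem (p := p) hHT hTH hall
    have hblk := h.isBlk_stab
    obtain ⟨D, hD⟩ := hblk.exists_isDef p
    have hQD : Q ≤ D := hblk.normal_le_def hD hQT hTN h.isPGroup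
    have hDH : D ≤ Q ⊔ C := by
      intro d hd'
      refine hall d (hD.le hd') ?_
      obtain ⟨j, hj⟩ := IsPGroup.iff_orderOf.1 hD.isPGroup ⟨d, hd'⟩
      exact ⟨j, by rw [← hj, ← Subgroup.orderOf_coe]⟩
    have hcard : Nat.card (D ⊓ C : Subgroup G) ≤ Nat.card (Q ⊓ C : Subgroup G) := by
      obtain ⟨u, hu, hle⟩ := hd.le_of_br_ne (Q := D ⊓ C) inf_le_right
        (hD.isPGroup.to_le inf_le_left) (br_ne_of_le inf_le_left hD.br_ne)
      have := Subgroup.card_le_of_le hle
      rwa [card_map_conj] at this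
    have h1 : Q ⊓ C = D ⊓ C := Subgroup.eq_of_le_of_card_ge (inf_le_inf_right C hQD) hcard
    have h2 : D = Q := by
      refine le_antisymm ?_ hQD
      intro d hd'
      obtain ⟨q, hq, c, hc, rfl⟩ := (BlkF.mem_sup_centralizer (Subgroup.le_normalizer)).1 (hDH hd')
      have h3 : c ∈ D ⊓ C := by
        refine ⟨?_, hc⟩
        have := D.mul_mem (D.inv_mem (hQD hq)) hd'
        rwa [inv_mul_cancel_left] at this
      rw [← h1] at h3
      exact Q.mul_mem hq h3.1
    rw [h2] at hD
    obtain ⟨b, hb, -⟩ := existsUnique_block h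
    exact BlkF.MPairOf.mmax hb (isDef_of_isDef_stab h hD hb)

end modular

end Cfsg.Agent.H79
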