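import Cfsg.Agent.H79.CopChar
import Cfsg.Agent.Char.Clifford

/-!
# Orbits of a subgroup on the irreducible characters of a normal subgroup
-/

set_option autoImplicit false

open Cfsg ComplexConjugate

namespace Cfsg.Agent.H79

variable {G : Type*} [Group G] [Finite G]

/-- the orbit of `θ` under conjugation by the elements of `P`. -/
noncomputable def pOrb (N P : Subgroup G) [N.Normal] (θ : N → ℂ) : Finset (N → ℂ) :=
  (Set.toFinite (Set.range (fun g : P => Char.cj N (g : G) θ))).toFinset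

theorem mem_pOrb {N P : Subgroup G} [N.Normal] {θ ψ : N → ℂ} :
    ψ ∈ pOrb N P θ ↔ ∃ g ∈ P, Char.cj N g θ = ψ := by
  unfold pOrb
  rw [Set.Finite.mem_toFinset, Set.mem_range]
  exact ⟨fun ⟨g, hg⟩ => ⟨g, g.2, hg⟩, fun ⟨g, hg, h⟩ => ⟨⟨g, hg⟩, h⟩⟩

theorem card_pOrb (N P : Subgroup G) [N.Normal] (θ : N → ℂ) :
    (pOrb N P θ).card * Nat.card (P ⊓ Char.inertia N θ : Subgroup G) = Nat.card P := by
  classical
  have := Fintype.ofFinite G
  have := Fintype.ofFinite P
  have hfin := Fintype.ofFinite (P ⊓ Char.inertia N θ : Subgroup G)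
  have hI : pOrb N P θ = Finset.univ.image (fun g : P => Char.cj N (g : G) θ) := by
    ext ψ
    rw [mem_pOrb]
    simp
  have h1 : ∀ ψ ∈ pOrb N P θ, (Finset.univ.filter fun g : P => Char.cj N (g : G) θ = ψ).card
      = Nat.card (P ⊓ Char.inertia N θ : Subgroup G) := by
    intro ψ hψ
    obtain ⟨g, hgP, hg⟩ := mem_pOrb.mp hψ
    rw [Nat.card_eq_fintype_card, ← Finset.card_univ]
    symm
    refine Finset.card_bij (fun t _ => (⟨t * g, P.mul_mem t.2.1 hgP⟩ : P)) ?_ ?_ ?_
    · intro t _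
      rw [Finset.mem_filter]
      refine ⟨Finset.mem_univ _, ?_⟩
      show Char.cj N ((t : G) * g) θ = ψ
      rw [Char.cj_mul, (Char.mem_inertia N).mp t.2.2, hg]
    · intro a _ b _ hab
      have h3 := congrArg Subtype.val hab
      exact Subtype.ext (mul_right_cancel h3)
    · intro b hb
      have hb' := (Finset.mem_filter.mp hb).2
      refine ⟨⟨b * (g : G)⁻¹, P.mul_mem b.2 (P.inv_mem hgP), ?_⟩, Finset.mem_univ _, ?_⟩
      · exact (Char.cj_eq_cj_iff N).mp (hb'.trans hg.symm)
      · apply Subtype.ext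
        simp
  rw [Nat.card_eq_fintype_card (α := P), ← Finset.card_univ (α := P),
    Finset.card_eq_sum_card_image (fun g : P => Char.cj N (g : G) θ) Finset.univ, ← hI,
    Finset.sum_congr rfl h1, Finset.sum_const, smul_eq_mul]

theorem card_pOrb_mul_le {χ : G → ℂ} (hχ : IsCharacter G χ)
    (N P : Subgroup G) [N.Normal] [Fintype N] (ψ : IrrCharacter N)
    (hne : classInner (fun x : N => χ x) (ψ : N → ℂ) ≠ 0) :
    (pOrb N P (ψ : N → ℂ)).card * charDegree (ψ : N → ℂ) ≤ charDegree χ := by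
  classical
  have := Fintype.ofFinite (IrrCharacter N)
  have hresN : IsCharacter N (fun x : N => χ x) := CharBase.isCharacter_restrict hχ N
  have hcl : IsClassFunction G χ := CharBase.isClassFunction_of_isCharacter hχ
  obtain ⟨m, hm, hsum⟩ := CharBase.exists_mult_of_isCharacter hresN
  have hdeg : charDegree χ = ∑ φ : IrrCharacter N, m φ * charDegree (φ : N → ℂ) := by
    have h2 := congrFun hsum 1
    rw [Finset.sum_apply] at h2
    have h3 : χ ((1 : N) : G) = (charDegree χ : ℂ) := char_one_eq hχ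
    rw [h3] at h2
    have h4 : (charDegree χ : ℂ) = ((∑ φ : IrrCharacter N, m φ * charDegree (φ : N → ℂ) : ℕ) : ℂ) := by
      rw [h2]
      push_cast
      refine Finset.sum_congr rfl (fun φ _ => ?_)
      rw [Pi.smul_apply, irr_one, nsmul_eq_mul]
    exact_mod_cast h4
  set T : Finset (IrrCharacter N) := Finset.univ.filter (fun φ => (φ : N → ℂ) ∈ pOrb N P (ψ : N → ℂ))
  have hT : T.card = (pOrb N P (ψ : N → ℂ)).card := by
    refine Finset.card_bij (fun φ _ => (φ : N → ℂ)) ?_ ?_ ?_
    · intro φ hφ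
      exact (Finset.mem_filter.mp hφ).2
    · intro a _ b _ hab
      exact Subtype.ext hab
    · intro b hb
      obtain ⟨g, -, hg⟩ := mem_pOrb.mp hb
      refine ⟨⟨b, hg ▸ Char.isIrrCharacter_cj N g ψ.2⟩, ?_, rfl⟩
      exact Finset.mem_filter.mpr ⟨Finset.mem_univ _, hb⟩
  have hval : ∀ φ ∈ T, charDegree (ψ : N → ℂ) ≤ m φ * charDegree (φ : N → ℂ) := by
    intro φ hφ
    obtain ⟨g, -, hg⟩ := mem_pOrb.mp (Finset.mem_filter.mp hφ).2
    have h1 : charDegree (φ : N → ℂ) = charDegree (ψ : N → ℂ) := by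
      unfold charDegree
      rw [← hg, Char.cj_one_apply]
    have h2 : m φ = m ψ := by
      have h3 := hm φ
      rw [← hg, Char.classInner_restrict_cj N hcl, hm ψ] at h3
      exact_mod_cast h3.symm
    have h3 : m ψ ≠ 0 := by
      intro h
      apply hne
      rw [hm ψ, h]; simp
    rw [h1, h2]
    exact Nat.le_mul_of_pos_left _ (Nat.pos_of_ne_zero h3)
  rw [hdeg, ← hT]
  calc T.card * charDegree (ψ : N → ℂ) = ∑ _φ ∈ T, charDegree (ψ : N → ℂ) := by
        rw [Finset.sum_const, smul_eq_mul]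
    _ ≤ ∑ φ ∈ T, m φ * charDegree (φ : N → ℂ) := Finset.sum_le_sum hval
    _ ≤ ∑ φ : IrrCharacter N, m φ * charDegree (φ : N → ℂ) :=
        Finset.sum_le_sum_of_subset (Finset.subset_univ _)

theorem scalar_transport (p : ℕ) [hp : Fact p.Prime]
    (N S C : Subgroup G) [hNn : N.Normal] (hpN : ¬ p ∣ Nat.card N) (hS : IsPGroup p S)
    (ψ : IrrCharacter N) (hinv : ∀ g ∈ S, Char.cj N g (ψ : N → ℂ) = ψ) (hCN : C ≤ N)
    (hC : ∀ s ∈ S, s ≠ 1 → ∀ n ∈ N, (n ∈ C ↔ n * s = s * n))
    (hdeg : charDegree (ψ : N → ℂ) ^ 2 ≤ Nat.card S) (s : G) (hs : s ∈ S) (n m : N)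
    (hm : (m : G) = n * s * (n : G)⁻¹ * s⁻¹) : (ψ : N → ℂ) m = (ψ : N → ℂ) 1 := by
  set L : Subgroup G := N ⊔ S with hL
  have hNL : N ≤ L := le_sup_left
  have hSL : S ≤ L := le_sup_right
  have hLin : L ≤ Char.inertia N (ψ : N → ℂ) := by
    apply sup_le
    · exact Char.le_inertia N (CharBase.irr_isClassFunction ψ)
    · intro g hg
      exact (Char.mem_inertia N).mpr (hinv g hg)
  let e : N.subgroupOf L ≃* N := Subgroup.subgroupOfEquivOfLe hNL
  have he : ∀ x : N.subgroupOf L, ((e x : N) : G) = ((x : L) : G) := fun x => rfl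
  have key := scalar_of_small_degree (G := L) p (N.subgroupOf L) (S.subgroupOf L)
    (C.subgroupOf L) (by rwa [Nat.card_congr e.toEquiv])
    (hS.of_equiv (Subgroup.subgroupOfEquivOfLe hSL).symm)
    (by rw [← Subgroup.subgroupOf_sup hNL hSL, ← hL, Subgroup.subgroupOf_self])
    (Subgroup.comap_mono hCN)
    (by
      intro t ht ht1 x hx
      have h1 := hC (t : G) ht (fun h => ht1 (Subtype.ext h)) (x : G) hx
      rw [Subgroup.mem_subgroupOf, h1]
      constructor
      · intro h; exact Subtype.ext h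
      · intro h; exact congrArg Subtype.val h)
    (irrComap e ψ)
    (by
      intro g x
      simp only [irrComap_apply]
      have h1 := congrFun ((Char.mem_inertia N).mp (hLin g.2)) (e x)
      rw [← h1, Char.cj_apply]
      congr 1)
    (by
      have h1 : charDegree (irrComap e ψ : N.subgroupOf L → ℂ) = charDegree (ψ : N → ℂ) := by
        unfold charDegree
        rw [irrComap_apply, map_one]
      rw [h1, Nat.card_congr (Subgroup.subgroupOfEquivOfLe hSL).toEquiv]
      exact hdeg)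
    ⟨s, hSL hs⟩ hs (e.symm n) (e.symm m) (by
      apply Subtype.ext
      exact hm)
  simp only [irrComap_apply, MulEquiv.apply_symm_apply, map_one] at key
  exact key

end Cfsg.Agent.H79
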