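import Mathlib
import Cfsg.Prelude.Def_Local
import Cfsg.Agent.H79.Count

/-!
# Defect zero characters from normal subgroups
-/

set_option autoImplicit false

namespace Cfsg.Agent.H79

open Cfsg

section

variable {G : Type*} [Group G] [Finite G]

/-- A normal `p'`-subgroup of order divisible by `q` gives a `p`-defect zero character, when
centralizers of nontrivial `p`-elements are `q'`-groups. -/
theorem exists_defectZero_of_normal (p q : ℕ) [hp : Fact p.Prime] [hq : Fact q.Prime] (hpq : p ≠ q)
    (hC : ∀ g : G, g ≠ 1 → (∃ k : ℕ, orderOf g = p ^ k) →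
      ¬ q ∣ Nat.card (Subgroup.centralizer ({g} : Set G)))
    (X : Subgroup G) [hX : X.Normal] (hpX : ¬ p ∣ Nat.card X) (hqX : q ∣ Nat.card X) :
    ∃ χ : IrrCharacter G,
      (charDegree (χ : G → ℂ)).factorization p = (Nat.card G).factorization p := by
  obtain ⟨z, hz⟩ := exists_prime_orderOf_dvd_card' q hqX
  have hz1 : orderOf (z : G) = q := by rw [← hz]; exact Subgroup.orderOf_coe z
  have hzne : (z : G) ≠ 1 := by
    intro h
    rw [h, orderOf_one] at hz1
    exact hq.out.one_lt.ne hz1
  refine exists_defectZero_of_sep p q hpq hC z hzne 1 (by rw [hz1, pow_one]) ?_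
  intro g h hg hh hne k hk
  have hmem : ∀ y : G, IsConj (z : G) y → y ∈ X := by
    intro y hy
    obtain ⟨d, rfl⟩ := isConj_iff.mp hy
    exact hX.conj_mem _ z.2 d
  have h1 : g * h⁻¹ ∈ X := X.mul_mem (hmem g hg) (X.inv_mem (hmem h hh))
  have hk0 : k ≠ 0 := by
    rintro rfl
    rw [pow_zero, orderOf_eq_one_iff] at hk
    exact hne hk
  apply hpX
  have h2 : p ∣ orderOf (⟨g * h⁻¹, h1⟩ : X) := by
    have h3 : orderOf ((⟨g * h⁻¹, h1⟩ : X) : G) = orderOf (⟨g * h⁻¹, h1⟩ : X) :=
      Subgroup.orderOf_coe _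
    rw [← h3, hk]
    exact dvd_pow_self p hk0
  exact h2.trans (orderOf_dvd_natCard _)

theorem exists_normal_of_isPSolvable (p q : ℕ) [hp : Fact p.Prime] [hq : Fact q.Prime] (hpq : p ≠ q)
    (hpG : p ∣ Nat.card G) (hsolv : IsPSolvable p G) :
    ∃ X : Subgroup G, X.Normal ∧ ((¬ p ∣ Nat.card X ∧ q ∣ Nat.card X) ∨
      (¬ q ∣ Nat.card X ∧ p ∣ Nat.card X)) := by
  obtain ⟨n, H, h0, hn, hmono, hnorm, hfac⟩ := hsolv
  have key : ∀ i : Fin (n + 1), (¬ p ∣ Nat.card (H i) ∧ ¬ q ∣ Nat.card (H i)) ∨
      ∃ X : Subgroup G, X.Normal ∧ ((¬ p ∣ Nat.card X ∧ q ∣ Nat.card X) ∨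
      (¬ q ∣ Nat.card X ∧ p ∣ Nat.card X)) := by
    intro i
    induction i using Fin.induction with
    | zero =>
      left
      rw [h0]
      simp only [Subgroup.card_bot, Nat.dvd_one]
      exact ⟨hp.out.one_lt.ne', hq.out.one_lt.ne'⟩
    | succ i ih =>
      rcases ih with ⟨ih1, ih2⟩ | ih
      · have hle : H i.castSucc ≤ H i.succ := hmono (Fin.castSucc_lt_succ).le
        have hcard : Nat.card (H i.castSucc) * (H i.castSucc).relIndex (H i.succ) =
            Nat.card (H i.succ) := by
          have h1 := Subgroup.card_mul_index ((H i.castSucc).subgroupOf (H i.succ))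
          rw [← h1, Subgroup.relIndex]
          congr 1
          exact (Nat.card_congr (Subgroup.subgroupOfEquivOfLe hle).toEquiv).symm
        by_cases hq' : q ∣ Nat.card (H i.succ)
        · right
          refine ⟨H i.succ, hnorm _, Or.inl ⟨?_, hq'⟩⟩
          rw [← hcard] at hq' ⊢
          have h2 := (hq.out.dvd_mul.mp hq').resolve_left ih2
          rcases hfac i with ⟨m, hm⟩ | hcop
          · exfalso
            rw [hm] at h2
            exact hpq ((Nat.prime_dvd_prime_iff_eq hq.out hp.out).mp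
              (hq.out.dvd_of_dvd_pow h2)).symm
          · intro h3
            rcases hp.out.dvd_mul.mp h3 with h4 | h4
            · exact ih1 h4
            · have := Nat.Coprime.eq_one_of_dvd hcop.symm h4
              exact hp.out.one_lt.ne' this
        · by_cases hp' : p ∣ Nat.card (H i.succ)
          · right
            exact ⟨H i.succ, hnorm _, Or.inr ⟨hq', hp'⟩⟩
          · left; exact ⟨hp', hq'⟩
      · exact Or.inr ih
  rcases key (Fin.last n) with ⟨h1, -⟩ | h
  · exfalso
    rw [hn, Subgroup.card_top] at h1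
    exact h1 hpG
  · exact h

end

end Cfsg.Agent.H79
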